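import Cfsg.Agent.H4.Y24T
import Cfsg.Agent.H4.F2BS

/-! The group with diagram `Y₅₄₂`: the centraliser of a transposition. -/

set_option autoImplicit false

namespace Cfsg.Agent.H4

open Subgroup Cfsg.Agent.H5 Cfsg.Agent.H8.TC Cfsg.Agent.H4.TC

section general

variable {G : Type*} [Group G]

theorem card_sign (σ : G →* ℤˣ) {A : Subgroup G} {l : G} (hl : l ∈ A) (h : σ l = -1) :
    Nat.card A = 2 * Nat.card (A ⊓ σ.ker : Subgroup G) := by
  have h1 : (σ.ker.subgroupOf A).index = 2 := index_eq_two_iff.2 ⟨⟨l, hl⟩, fun b => by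
    simp only [mem_subgroupOf, MonoidHom.mem_ker, coe_mul, map_mul, h]
    rcases Int.units_eq_one_or (σ b) with e | e <;> rw [e] <;> decide⟩
  rw [← (σ.ker.subgroupOf A).index_mul_card, h1, ← inf_subgroupOf_left,
    Nat.card_congr (subgroupOfEquivOfLe inf_le_left).toEquiv]

theorem card_inf_cent {A : Subgroup G} {x : G} (hx : x ∈ A) :
    Nat.card (A ⊓ centralizer {x} : Subgroup G) = Nat.card (centralizer {(⟨x, hx⟩ : A)}) := by
  rw [centralizer_sub hx rfl, Nat.card_congr (subgroupOfEquivOfLe inf_le_left).toEquiv]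

theorem card_cent_equiv {G' : Type*} [Group G'] (e : G ≃* G') (x : G) :
    Nat.card (centralizer {x}) = Nat.card (centralizer {e x}) := by
  have : (centralizer {x}).map e.toMonoidHom = centralizer {e x} := by
    ext y
    rw [mem_map_equiv, mem_centralizer_singleton_iff, mem_centralizer_singleton_iff,
      ← e.apply_eq_iff_eq, map_mul, map_mul, e.apply_symm_apply]
  rw [← this, card_map_of_injective e.injective]

theorem card_inf_equiv {G' : Type*} [Group G'] {A : Subgroup G} {B : Subgroup G'} (e : A ≃* B)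
    {x : G} (hx : x ∈ A) {y : G'} (h : (e ⟨x, hx⟩ : G') = y) :
    Nat.card (A ⊓ centralizer {x} : Subgroup G) = Nat.card (B ⊓ centralizer {y} : Subgroup G') := by
  rw [← h, card_inf_cent hx, card_inf_cent (SetLike.coe_mem _), card_cent_equiv e]

theorem pair_simple {B : Type*} [Group B] {a : ℕ → G} {b : ℕ → B} {k N : ℕ}
    (hP : Bd (Gk (fun c => (a c, b c)) k) N) {R : Subgroup B}
    (hR : ∀ S : Subgroup B, (∀ c < k + 1, b c ∈ S) → R ≤ S) (hc : Nat.card R = N)
    (hs : IsSimpleGroup R) {c : ℕ} (hk : c < k + 1) (h1 : a c ≠ 1) :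
    IsSimpleGroup (Gk a k) ∧ Nat.card (Gk a k) = N ∧
      Nat.card (Gk a k ⊓ centralizer {a c} : Subgroup G) =
        Nat.card (R ⊓ centralizer {b c} : Subgroup B) := by
  have hp := mem_Gk (lt := fun c => (a c, b c)) hk
  obtain ⟨e, he⟩ := pair_iso hP (hR _ fun c hc => mem_map_of_mem (MonoidHom.snd G B)
    (mem_Gk (lt := fun c => (a c, b c)) hc)) hc hs hp h1
  have e1 : (Gk (fun c => (a c, b c)) k).map (MonoidHom.fst G B) = Gk a k := map_Gk _ k
  rw [← e1]
  exact ⟨e.isSimpleGroup, (Nat.card_congr e.toEquiv).trans hc, card_inf_equiv e _ (he _ hp)⟩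

theorem prod_pair {G' : Type*} [Group G'] (a : ℕ → G) (b : ℕ → G') (w : List ℕ) :
    (w.map fun c => (a c, b c)).prod = ((w.map a).prod, (w.map b).prod) := by
  induction w with
  | nil => rfl
  | cons c w ih => rw [List.map_cons, List.prod_cons, ih]; rfl

theorem eq_one_of_central {A : Subgroup G} [Finite A] (hs : IsSimpleGroup A)
    (hp : ¬ (Nat.card A).Prime) {x : G} (hx : x ∈ A) (h : ∀ y ∈ A, y * x = x * y) : x = 1 := by
  have h1 := (hs.eq_bot_or_eq_top_of_normal (center A) inferInstance).resolve_right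
    (center_ne_top_of_simple hs hp)
  have : (⟨x, hx⟩ : A) ∈ center A := mem_center_iff.2 fun y => Subtype.ext (h y y.2)
  rw [h1, mem_bot] at this
  exact congrArg Subtype.val this

theorem dvd_25 [Finite G] {S : Subgroup G} {x y f : G} (hx : x ∈ S) (hy : y ∈ S) (x5 : x ^ 5 = 1)
    (y5 : y ^ 5 = 1) (hc : x * y = y * x) (y1 : y ≠ 1) (fy : f * y = y * f) (fx : f * x ≠ x * f) :
    25 ∣ Nat.card S := by
  have : Fact (Nat.Prime 5) := ⟨by norm_num⟩
  have hy5 : Nat.card (zpowers y) = 5 := by rw [Nat.card_zpowers, orderOf_eq_prime y5 y1]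
  have hP : IsPGroup 5 (zpowers x ⊔ zpowers y : Subgroup G) :=
    IsPGroup.to_sup_of_normal_right' (pgroup_zpowers (e := 1) x5) (pgroup_zpowers (e := 1) y5)
      ((zpowers_le.2 (mem_centralizer_iff.2 (by
        rintro _ ⟨k, rfl⟩
        exact ((Commute.zpow_right hc k).eq).symm))).trans (centralizer_le_normalizer _))
  refine pow_dvd_of_pgroup (k := 1) (by norm_num) hP (sup_le (zpowers_le.2 hx) (zpowers_le.2 hy))
    le_rfl (lt_of_not_ge fun h => fx ?_)
  obtain ⟨k, rfl⟩ := (eq_of_le_of_card_ge (le_sup_right (a := zpowers x)) (h.trans hy5.ge)).ge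
    (mem_sup_left (mem_zpowers x))
  exact (Commute.zpow_right fy k).eq

end general

theorem Y23.Rel.prod {A B : Type*} [Group A] [Group B] {a : ℕ → A} {b : ℕ → B} (ha : Y23.Rel a)
    (hb : Y23.Rel b) : Y23.Rel fun c => (a c, b c) :=
  ⟨Prod.ext ha.zero hb.zero, fun c => Prod.ext (ha.sq c) (hb.sq c),
    fun x hx y hy => Prod.ext (ha.cox x hx y hy) (hb.cox x hx y hy),
    by rw [prod_pair]; exact Prod.ext ha.r1 hb.r1, by rw [prod_pair]; exact Prod.ext ha.r2 hb.r2⟩

theorem F23.cent8 : Nat.card (F23.rG ⊓ centralizer {F23.mA.elt (F23.Lt 8)} : Subgroup F23.GA) =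
    129123503308800 := by
  have e0 : F23.Tx 1 = F23.Lt 8 := by decide +kernel
  have e1 : (F23.mA.elt (F23.rD 1))⁻¹ * F23.dd * F23.mA.elt (F23.rD 1) = F23.mA.elt (F23.Lt 8) :=
    F23.mA.inj ((F23.rx 1 (by decide)).trans (e0 ▸ (F23.Ltop 8).elt.symm))
  have hd : F23.dd ∈ F23.rG := (F23.centG.ge F23.dH.elt_mem).1
  obtain ⟨e⟩ := centralizer_conj_equiv (⟨_, F23.rG1⟩ : F23.rG)⁻¹ ⟨_, hd⟩
  rw [← F23.cardH, ← F23.centG, card_inf_cent hd, Nat.card_congr e.toEquiv, ← e1,
    card_inf_cent (mul_mem (mul_mem (inv_mem F23.rG1) hd) F23.rG1)]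
  rfl

namespace Y24

variable {Γ : Type*} [Group Γ] {lt : ℕ → Γ} {σ : Γ →* ℤˣ}

theorem Rel.iv (h : Rel lt) (c : ℕ) : (lt c)⁻¹ = lt c := inv_eq_of_mul_eq_one_left (h.sq c)

theorem Rel.cm (h : Rel lt) {a b : ℕ} (ha : a < 16) (hb : b < 16) (e : fld Mx 4 15 (a + 16 * b) = 2) :
    lt a * lt b = lt b * lt a := by
  have := h.cox a ha b hb
  rw [e, pow_two, mul_eq_one_iff_eq_inv, mul_inv_rev, h.iv, h.iv] at this
  exact this

theorem Rel.br (h : Rel lt) {a b : ℕ} (ha : a < 16) (hb : b < 16) (e : fld Mx 4 15 (a + 16 * b) = 3) :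
    lt a * lt b * lt a = lt b * lt a * lt b := by
  have := h.cox a ha b hb
  rw [e, show (lt a * lt b) ^ 3 = lt a * lt b * lt a * (lt b * lt a * lt b) by
    simp only [pow_succ, pow_zero, one_mul, mul_assoc], mul_eq_one_iff_eq_inv, mul_inv_rev,
    mul_inv_rev, h.iv, h.iv, ← mul_assoc] at this
  exact this

theorem Rel.cml (h : Rel lt) {c : ℕ} (hc : c ≤ 11) : lt c * lt 11 = lt 11 * lt c := by
  have e : ∀ c < 11, c ≠ 0 → fld Mx 4 15 (c + 16 * 11) = 2 := by decide +kernel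
  rcases Nat.eq_zero_or_pos c with rfl | h0
  · rw [h.zero, one_mul, mul_one]
  · rcases hc.lt_or_eq with h1 | rfl
    · exact h.cm (by omega) (by omega) (e c h1 h0.ne')
    · rfl

theorem Rel.K_le (h : Rel lt) : Gk lt 11 ≤ centralizer {lt 11} :=
  Gk_le fun _ hc => mem_centralizer_singleton_iff.2 (h.cml hc)

theorem Rel.cK (h : Rel lt) {x : Γ} (hx : x ∈ Gk lt 11) : x * lt 11 = lt 11 * x :=
  mem_centralizer_singleton_iff.1 (h.K_le hx)

/-- the conjugating elements -/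
noncomputable def u (lt : ℕ → Γ) (s : ℕ) : Γ := ((U s).map lt).prod

theorem Rel.ustep (h : Rel lt) {s t : ℕ} (e : U t = U s ++ [t, s] ∧ s < 16 ∧ t < 16 ∧
    fld Mx 4 15 (t + 16 * s) = 3) (h1 : (u lt s)⁻¹ * lt 11 * u lt s = lt s) :
    (u lt t)⁻¹ * lt 11 * u lt t = lt t := by
  have e1 : u lt t = u lt s * (lt t * lt s) := by
    rw [u, e.1, List.map_append, List.prod_append]; simp [u]
  calc _ = (lt s)⁻¹ * ((lt t)⁻¹ * ((u lt s)⁻¹ * lt 11 * u lt s) * lt t) * lt s := by rw [e1]; group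
    _ = (lt s)⁻¹ * (lt s * lt t * (lt s)⁻¹) * lt s := by
      rw [h1, h.iv t, h.br e.2.2.1 e.2.1 e.2.2.2, h.iv s]
    _ = _ := by group

theorem Rel.conj (h : Rel lt) : ∀ s < 13, 1 ≤ s → (u lt s)⁻¹ * lt 11 * u lt s = lt s := by
  have h11 : (u lt 11)⁻¹ * lt 11 * u lt 11 = lt 11 := by
    rw [show u lt 11 = 1 from rfl, inv_one, one_mul, mul_one]
  have h12 := h.ustep (t := 12) (by decide +kernel) h11
  have h8 := h.ustep (t := 8) (by decide +kernel) h12
  have h6 := h.ustep (t := 6) (by decide +kernel) h8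
  have h5 := h.ustep (t := 5) (by decide +kernel) h6
  have h1 := h.ustep (t := 1) (by decide +kernel) h5
  have h2 := h.ustep (t := 2) (by decide +kernel) h1
  have h3 := h.ustep (t := 3) (by decide +kernel) h2
  have h9 := h.ustep (t := 9) (by decide +kernel) h3
  have h10 := h.ustep (t := 10) (by decide +kernel) h9
  have h4 := h.ustep (t := 4) (by decide +kernel) h1
  have h7 := h.ustep (t := 7) (by decide +kernel) h4
  intro s hs h0
  interval_cases s <;> assumption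

/-- the letters of the subgroup `Fi₂₃` -/
def l0 (lt : ℕ → Γ) (c : ℕ) : Γ := if 1 ≤ c ∧ c ≤ 10 then lt c * lt 11 else 1

theorem Rel.l0_prod (h : Rel lt) (w : List ℕ) (hw : ∀ c ∈ w, 1 ≤ c ∧ c ≤ 10) :
    (w.map (l0 lt)).prod = (w.map lt).prod * lt 11 ^ w.length ∧ Commute (w.map lt).prod (lt 11) := by
  induction w with
  | nil => simp
  | cons c w ih =>
    obtain ⟨h1, h2⟩ := ih fun d hd => hw d (List.mem_cons_of_mem _ hd)
    have h3 := hw c List.mem_cons_self
    refine ⟨?_, ?_⟩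
    · rw [List.map_cons, List.prod_cons, h1, l0, if_pos h3, List.map_cons, List.prod_cons,
        List.length_cons, pow_succ', mul_assoc, mul_assoc, ← mul_assoc (lt 11), ← h2.eq, mul_assoc]
    · rw [List.map_cons, List.prod_cons]
      exact Commute.mul_left (h.cml (by omega)) h2

theorem Rel.l_even (h : Rel lt) (k : ℕ) : lt 11 ^ (2 * k) = 1 := by rw [pow_mul, pow_two, h.sq, one_pow]

theorem Rel.rel0 (h : Rel lt) : Y23.Rel (l0 lt) := by
  have key : ∀ a b, 1 ≤ a ∧ a ≤ 10 → 1 ≤ b ∧ b ≤ 10 → l0 lt a * l0 lt b = lt a * lt b := by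
    intro a b ha hb
    rw [l0, l0, if_pos ha, if_pos hb, h.cml (by omega : b ≤ 11), mul_assoc, ← mul_assoc (lt 11),
      h.sq, one_mul]
  refine ⟨rfl, fun c => ?_, fun a ha b hb => ?_, ?_, ?_⟩
  · by_cases hc : 1 ≤ c ∧ c ≤ 10
    · rw [key c c hc hc, h.sq]
    · rw [l0, if_neg hc, one_mul]
  · have e : ∀ a < 16, ∀ b < 16, fld Y23.Mx 4 15 (a + 16 * b) =
        if (1 ≤ a ∧ a ≤ 10) ∧ 1 ≤ b ∧ b ≤ 10 then fld Mx 4 15 (a + 16 * b) else 0 := by
      decide +kernel
    rw [e a ha b hb]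
    split_ifs with h1
    · rw [key a b h1.1 h1.2]; exact h.cox a ha b hb
    · exact pow_zero _
  · obtain ⟨h1, h2⟩ := h.l0_prod w1 (by decide)
    change (w1.map (l0 lt)).prod ^ 10 = 1
    rw [h1, (h2.pow_right _).mul_pow, h.r1, one_mul, ← pow_mul]
    exact h.l_even 45
  · obtain ⟨h1, h2⟩ := h.l0_prod [8, 6, 5, 1, 2, 3, 4] (by decide)
    rw [h1, (h2.pow_right _).mul_pow, ← pow_mul]
    change _ * lt 11 ^ (2 * 31 + 1) = 1
    rw [pow_succ (lt 11), h.l_even, one_mul, (h2.pow_left 9).eq, h.r2]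

theorem K0_le : Gk (l0 lt) 10 ≤ Gk lt 11 := Gk_le fun c _ => by
  unfold l0
  split_ifs with h1
  · exact mul_mem (mem_Gk (by omega)) (mem_Gk (by omega))
  · exact one_mem _

theorem Rel.memK (h : Rel lt) {x : Γ} (hx : x ∈ Gk lt 11) :
    x ∈ Gk (l0 lt) 10 ∨ x * lt 11 ∈ Gk (l0 lt) 10 := by
  have key : ∀ c ≤ 11, ∀ x ∈ Gk lt 11, x ∈ Gk (l0 lt) 10 ∨ x * lt 11 ∈ Gk (l0 lt) 10 →
      x * lt c ∈ Gk (l0 lt) 10 ∨ x * lt c * lt 11 ∈ Gk (l0 lt) 10 := by
    intro c hc x _ h1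
    rcases Nat.eq_zero_or_pos c with rfl | h0
    · rwa [h.zero, mul_one]
    have h2 : lt c * lt 11 ∈ Gk (l0 lt) 10 := by
      rcases hc.lt_or_eq with h2 | rfl
      · have : l0 lt c ∈ Gk (l0 lt) 10 := mem_Gk h2
        rwa [l0, if_pos ⟨h0, by omega⟩] at this
      · rw [h.sq]; exact one_mem _
    rcases h1 with h1 | h1
    · exact Or.inr (by rw [mul_assoc]; exact mul_mem h1 h2)
    · left
      have := mul_mem h1 h2
      rwa [h.cml hc, mul_assoc, ← mul_assoc (lt 11), h.sq, one_mul] at this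
  induction hx using closure_induction_right with
  | one => exact Or.inl (one_mem _)
  | mul_right x hx y hy ih =>
    obtain ⟨c, hc, rfl⟩ := hy
    exact key c hc x hx ih
  | mul_inv_cancel x hx y hy ih =>
    obtain ⟨c, hc, rfl⟩ := hy
    rw [h.iv]; exact key c hc x hx ih

structure St (lt : ℕ → Γ) (σ : Γ →* ℤˣ) : Prop extends Rel lt where
  top : Gk lt 12 = ⊤
  ne : lt 8 ≠ lt 11
  sg : ∀ c, 1 ≤ c → c ≤ 12 → σ (lt c) = -1

theorem St.al (h : St lt σ) : lt 8 * lt 11 ≠ 1 := fun e =>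
  h.ne ((eq_inv_of_mul_eq_one_left e).trans (h.iv 11))

theorem St.fi23 (h : St lt σ) : IsSimpleGroup (Gk (l0 lt) 10) ∧
    Nat.card (Gk (l0 lt) 10) = 4089470473293004800 ∧
    Nat.card (Gk (l0 lt) 10 ⊓ centralizer {lt 8 * lt 11} : Subgroup Γ) = 129123503308800 := by
  have := pair_simple (Y23.bd10 (h.rel0.prod F23.relL)) (fun _ => F23.rG_le) F23.cardG F23.simpleG
    (c := 8) (by decide) h.al
  rwa [F23.cent8] at this

theorem St.K0_eq (h : St lt σ) : Gk lt 11 ⊓ σ.ker = Gk (l0 lt) 10 := by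
  have h1 : Gk (l0 lt) 10 ≤ σ.ker := Gk_le fun c _ => by
    unfold l0
    split_ifs with h1
    · rw [MonoidHom.mem_ker, map_mul, h.sg c h1.1 (by omega), h.sg 11 (by omega) (by omega)]; rfl
    · exact one_mem _
  refine le_antisymm (fun x hx => (h.memK hx.1).resolve_right fun h2 => ?_) (le_inf K0_le h1)
  have := MonoidHom.mem_ker.1 (h1 h2)
  rw [map_mul, MonoidHom.mem_ker.1 hx.2, h.sg 11 (by omega) (by omega)] at this
  exact absurd this (by decide)

theorem St.cardK (h : St lt σ) : Nat.card (Gk lt 11) = 2 * 4089470473293004800 := by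
  rw [card_sign σ (mem_Gk (by decide)) (h.sg 11 (by omega) (by omega)), h.K0_eq, h.fi23.2.1]

theorem St.cardC (h : St lt σ) :
    Nat.card (Gk lt 11 ⊓ centralizer {lt 8} : Subgroup Γ) = 2 * 129123503308800 := by
  rw [card_sign σ (l := lt 11) (mem_inf.2 ⟨mem_Gk (by decide), mem_centralizer_singleton_iff.2
    (h.cml (by decide)).symm⟩) (h.sg 11 (by omega) (by omega)), inf_right_comm, h.K0_eq,
    ← h.fi23.2.2]
  congr 3
  ext x
  refine and_congr_right fun hx => ?_
  have := h.cK (K0_le hx)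
  change x ∈ centralizer {lt 8} ↔ x ∈ centralizer {lt 8 * lt 11}
  rw [mem_centralizer_singleton_iff, mem_centralizer_singleton_iff, mul_assoc, ← this, ← mul_assoc, ← mul_assoc, mul_left_inj]

theorem St.central0 (h : St lt σ) {x : Γ} (hx : x ∈ Gk (l0 lt) 10)
    (hc : ∀ y ∈ Gk (l0 lt) 10, y * x = x * y) : x = 1 :=
  have : Finite (Gk (l0 lt) 10) := Nat.finite_of_card_ne_zero (by rw [h.fi23.2.1]; norm_num)
  eq_one_of_central h.fi23.1 (by rw [h.fi23.2.1]; norm_num) hx hc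

theorem St.nc (h : St lt σ) : lt 11 * lt 12 ≠ lt 12 * lt 11 := fun e => by
  have h1 := h.br (a := 11) (b := 12) (by decide) (by decide) (by decide +kernel)
  rw [e, mul_assoc, h.sq, mul_one, ← e, mul_assoc, h.sq, mul_one] at h1
  have h2 := h.br (a := 8) (b := 12) (by decide) (by decide) (by decide +kernel)
  rw [h1, h.cml (by decide : 8 ≤ 11), mul_assoc, h.sq, mul_one, ← h.cml (by decide : 8 ≤ 11),
    mul_assoc, h.sq, mul_one] at h2
  exact h.ne h2.symm

end Y24

end Cfsg.Agent.H4
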