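import Cfsg.Agent.H4.HeBC0

set_option autoImplicit false
set_option maxRecDepth 100000

namespace Cfsg.Agent.H4.He

open Subgroup Cfsg.Agent.H5 Cfsg.Agent.H5.Mdl Cfsg.Agent.H4.TC

attribute [local irreducible] look Tr.get

theorem LtQ : ∀ i < 8, (chkSq (mul2 (nat_lit 51)) (one2 (nat_lit 51)) Lt) i = 0 :=
  (rng_step (all0 _) LtQ_0)
theorem LtC : ∀ i < 256, (chkCx (fun w => Nat.xor (wd (mul2 (nat_lit 51)) (one2 (nat_lit 51)) Lt w) (one2 (nat_lit 51))) YHe.Mx) i = 0 :=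
  (rng_step (all0 _) LtC_0)
theorem LtR : ∀ i < 5, (fun i => Nat.xor (wd (mul2 (nat_lit 51)) (one2 (nat_lit 51)) Lt (getW YHe.RL i)) (one2 (nat_lit 51))) i = 0 :=
  (rng_step (all0 _) LtR_0)
theorem Ltop : mA.El ⊤ Lt :=
  (sq_of_chk mA (fun _ => rfl) LtQ).1
theorem relL : YHe.Rel fun c => mA.elt (Lt c) :=
  ⟨elt_of_eq_one Lt0, (sq_of_chk mA (fun _ => rfl) LtQ).2,
    cox_of_chkCx (by decide +kernel) (sq_of_chk mA (fun _ => rfl) LtQ).2 (one_of_wd Ltop) LtC,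
    all_of_getW fun i hi => one_of_wd Ltop _ (LtR i hi)⟩
theorem WE : ∀ i < 8, (fun s => Nat.xor (Lt s) (Wp s)) i = 0 :=
  (rng_step (all0 _) WE_0)
theorem WW : ∀ i < 10, (chkPl (mul2 (nat_lit 51)) Wp [[nat_lit 2, nat_lit 2, nat_lit 4, nat_lit 5, nat_lit 4, nat_lit 2, nat_lit 5, nat_lit 4, nat_lit 5, nat_lit 4],
  [nat_lit 2, nat_lit 2, nat_lit 4, nat_lit 1, nat_lit 3, nat_lit 2, nat_lit 1, nat_lit 4],
  [nat_lit 7, nat_lit 7, nat_lit 5, nat_lit 4, nat_lit 5, nat_lit 7, nat_lit 2, nat_lit 7, nat_lit 5, nat_lit 4, nat_lit 5],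
  [nat_lit 2, nat_lit 7, nat_lit 5, nat_lit 4, nat_lit 1, nat_lit 5, nat_lit 4, nat_lit 1, nat_lit 5, nat_lit 4, nat_lit 5, nat_lit 7, nat_lit 1, nat_lit 4],
  [nat_lit 8, nat_lit 11, nat_lit 8, nat_lit 10, nat_lit 10, nat_lit 11, nat_lit 10, nat_lit 9],
  [nat_lit 11, nat_lit 11, nat_lit 11, nat_lit 8, nat_lit 8, nat_lit 9],
  [nat_lit 11, nat_lit 8, nat_lit 11, nat_lit 10, nat_lit 10, nat_lit 9, nat_lit 8],
  [nat_lit 14, nat_lit 12, nat_lit 13, nat_lit 12, nat_lit 13, nat_lit 14, nat_lit 14],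
  [nat_lit 13, nat_lit 13, nat_lit 12, nat_lit 13],
  [nat_lit 12, nat_lit 12, nat_lit 13, nat_lit 14, nat_lit 14, nat_lit 12, nat_lit 12]] (nat_lit 8)) i = 0 :=
  (rng_step (all0 _) WW_0)

theorem qG_le {R : Subgroup GA} (h : ∀ c < 8, mA.elt (Lt c) ∈ R) : qG ≤ R := by
  have h1 : mA.El R Wp := el_of_pad (in_pool (fun s hs => (in_of_elt Ltop h s hs).of_eq (WE s hs)) WW)
  exact sup_zpowers_le ((map_id_le H).trans (gn_le (all_succ (all_succ (all_succ all_nil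
    ((h1.wd _).of_mul_eq (in_one R) WT0)) ((h1.wd _).of_mul_eq (in_one R) WT1))
    ((h1.wd _).of_mul_eq (in_one R) WT2)))) ((h1.wd _).of_mul_eq (in_one R) WT3).elt_mem

end Cfsg.Agent.H4.He
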