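import Cfsg.Agent.H4.YHeD

set_option autoImplicit false
set_option maxRecDepth 100000
set_option Elab.async false

namespace Cfsg.Agent.H4.YHe

open Cfsg.Agent.H5 Cfsg.Agent.H8.TC Cfsg.Agent.H4.TC

theorem t7_0 : rngB t7f (nat_lit 50332) (nat_lit 0) (nat_lit 24) = 0 := by decide +kernel
theorem t7_3 : rngB t7f (nat_lit 50332) (nat_lit 72) (nat_lit 24) = 0 := by decide +kernel
theorem t7_6 : rngB t7f (nat_lit 50332) (nat_lit 144) (nat_lit 24) = 0 := by decide +kernel
theorem t7_9 : rngB t7f (nat_lit 50332) (nat_lit 216) (nat_lit 24) = 0 := by decide +kernel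
theorem t7_12 : rngB t7f (nat_lit 50332) (nat_lit 288) (nat_lit 24) = 0 := by decide +kernel
theorem t7_15 : rngB t7f (nat_lit 50332) (nat_lit 360) (nat_lit 24) = 0 := by decide +kernel
theorem t7_18 : rngB t7f (nat_lit 50332) (nat_lit 432) (nat_lit 24) = 0 := by decide +kernel
theorem t7_21 : rngB t7f (nat_lit 50332) (nat_lit 504) (nat_lit 24) = 0 := by decide +kernel
theorem t7_24 : rngB t7f (nat_lit 50332) (nat_lit 576) (nat_lit 24) = 0 := by decide +kernel
theorem t7_27 : rngB t7f (nat_lit 50332) (nat_lit 648) (nat_lit 24) = 0 := by decide +kernel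
theorem t7_30 : rngB t7f (nat_lit 50332) (nat_lit 720) (nat_lit 24) = 0 := by decide +kernel
theorem t7_z : od (t7R 0) = 0 := by decide +kernel

end Cfsg.Agent.H4.YHe
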