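import Cfsg.Agent.H4.YHeD

set_option autoImplicit false
set_option maxRecDepth 100000
set_option Elab.async false

namespace Cfsg.Agent.H4.YHe

open Cfsg.Agent.H5 Cfsg.Agent.H8.TC Cfsg.Agent.H4.TC

theorem t7_1 : rngB t7f (nat_lit 50332) (nat_lit 24) (nat_lit 24) = 0 := by decide +kernel
theorem t7_4 : rngB t7f (nat_lit 50332) (nat_lit 96) (nat_lit 24) = 0 := by decide +kernel
theorem t7_7 : rngB t7f (nat_lit 50332) (nat_lit 168) (nat_lit 24) = 0 := by decide +kernel
theorem t7_10 : rngB t7f (nat_lit 50332) (nat_lit 240) (nat_lit 24) = 0 := by decide +kernel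
theorem t7_13 : rngB t7f (nat_lit 50332) (nat_lit 312) (nat_lit 24) = 0 := by decide +kernel
theorem t7_16 : rngB t7f (nat_lit 50332) (nat_lit 384) (nat_lit 24) = 0 := by decide +kernel
theorem t7_19 : rngB t7f (nat_lit 50332) (nat_lit 456) (nat_lit 24) = 0 := by decide +kernel
theorem t7_22 : rngB t7f (nat_lit 50332) (nat_lit 528) (nat_lit 24) = 0 := by decide +kernel
theorem t7_25 : rngB t7f (nat_lit 50332) (nat_lit 600) (nat_lit 24) = 0 := by decide +kernel
theorem t7_28 : rngB t7f (nat_lit 50332) (nat_lit 672) (nat_lit 24) = 0 := by decide +kernel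
theorem t7_31 : rngB t7f (nat_lit 50332) (nat_lit 744) (nat_lit 24) = 0 := by decide +kernel

end Cfsg.Agent.H4.YHe
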