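import Cfsg.Agent.H4.YHeD

set_option autoImplicit false
set_option maxRecDepth 100000
set_option Elab.async false

namespace Cfsg.Agent.H4.YHe

open Cfsg.Agent.H5 Cfsg.Agent.H8.TC Cfsg.Agent.H4.TC

theorem t7_2 : rngB t7f (nat_lit 50332) (nat_lit 48) (nat_lit 24) = 0 := by decide +kernel
theorem t7_5 : rngB t7f (nat_lit 50332) (nat_lit 120) (nat_lit 24) = 0 := by decide +kernel
theorem t7_8 : rngB t7f (nat_lit 50332) (nat_lit 192) (nat_lit 24) = 0 := by decide +kernel
theorem t7_11 : rngB t7f (nat_lit 50332) (nat_lit 264) (nat_lit 24) = 0 := by decide +kernel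
theorem t7_14 : rngB t7f (nat_lit 50332) (nat_lit 336) (nat_lit 24) = 0 := by decide +kernel
theorem t7_17 : rngB t7f (nat_lit 50332) (nat_lit 408) (nat_lit 24) = 0 := by decide +kernel
theorem t7_20 : rngB t7f (nat_lit 50332) (nat_lit 480) (nat_lit 24) = 0 := by decide +kernel
theorem t7_23 : rngB t7f (nat_lit 50332) (nat_lit 552) (nat_lit 24) = 0 := by decide +kernel
theorem t7_26 : rngB t7f (nat_lit 50332) (nat_lit 624) (nat_lit 24) = 0 := by decide +kernel
theorem t7_29 : rngB t7f (nat_lit 50332) (nat_lit 696) (nat_lit 24) = 0 := by decide +kernel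
theorem t7_32 : rngB t7f (nat_lit 50332) (nat_lit 768) (nat_lit 19) = 0 := by decide +kernel

end Cfsg.Agent.H4.YHe
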