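import Cfsg.Agent.H4.YHeC0
import Cfsg.Agent.H4.YHeC1
import Cfsg.Agent.H4.YHeC2
import Cfsg.Agent.H4.YHeC3

set_option autoImplicit false
set_option maxRecDepth 100000

namespace Cfsg.Agent.H4.YHe

open Cfsg.Agent.H5 Cfsg.Agent.H8.TC Cfsg.Agent.H4.TC

attribute [local irreducible] look Tr.get

variable {Γ : Type*} [Group Γ] {lt : ℕ → Γ}

theorem t3all : ∀ c < 8, t3f c = 0 :=
  allB (rngB_step (allB0 _ _) t3_0) (by decide)
theorem bd3 (H : Rel lt) : Bd (Gk lt 3) 8 :=
  (bd_bot).step H.inv (fun c h => by rw [Nat.lt_one_iff.1 h, H.zero]; exact Subgroup.one_mem _) (by decide) (by decide) (by decide) t3_z t3all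
theorem t4all : ∀ c < 21, t4f c = 0 :=
  allB (rngB_step (allB0 _ _) t4_0) (by decide)
theorem bd4 (H : Rel lt) : Bd (Gk lt 4) 168 :=
  (bd3 H).step H.inv (fun _ h => mem_Gk h) (by decide) (by decide) (by decide) t4_z t4all
theorem t6all : ∀ c < 488, t6f c = 0 :=
  allB (rngB_step (allB0 _ _) t6_0) (by decide)
theorem bd6 (H : Rel lt) : Bd (Gk lt 6) 80640 :=
  (bd4 H).step H.inv (fun _ h => mem_Gk h) (by decide) (by decide) (by decide) t6_z t6all
theorem t7all : ∀ c < 50332, t7f c = 0 :=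
  allB (rngB_step (rngB_step (rngB_step (rngB_step (rngB_step (rngB_step (rngB_step (rngB_step (rngB_step (rngB_step (rngB_step (rngB_step (rngB_step (rngB_step (rngB_step (rngB_step (rngB_step (rngB_step (rngB_step (rngB_step (rngB_step (rngB_step (rngB_step (rngB_step (rngB_step (rngB_step (rngB_step (rngB_step (rngB_step (rngB_step (rngB_step (rngB_step (rngB_step (allB0 _ _) t7_0) t7_1) t7_2) t7_3) t7_4) t7_5) t7_6) t7_7) t7_8) t7_9) t7_10) t7_11) t7_12) t7_13) t7_14) t7_15) t7_16) t7_17) t7_18) t7_19) t7_20) t7_21) t7_22) t7_23) t7_24) t7_25) t7_26) t7_27) t7_28) t7_29) t7_30) t7_31) t7_32) (by decide)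
theorem bd7 (H : Rel lt) : Bd (Gk lt 7) 4030387200 :=
  (bd6 H).step H.inv (fun _ h => mem_Gk h) (by decide) (by decide) (by decide) t7_z t7all

end Cfsg.Agent.H4.YHe
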