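import Cfsg.Agent.H4.F24A
import Cfsg.Agent.H4.HeBS
import Cfsg.Agent.H4.YHeS

/-! The group with diagram `Y₅₄₂`: order, transpositions, the Held subgroup. -/

set_option autoImplicit false

namespace Cfsg.Agent.H4

open Subgroup Cfsg.Agent.H5 Cfsg.Agent.H8.TC Cfsg.Agent.H4.TC

theorem YHe.Rel.prod {A B : Type*} [Group A] [Group B] {a : ℕ → A} {b : ℕ → B} (ha : YHe.Rel a)
    (hb : YHe.Rel b) : YHe.Rel fun c => (a c, b c) :=
  ⟨Prod.ext ha.zero hb.zero, fun c => Prod.ext (ha.sq c) (hb.sq c),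
    fun x hx y hy => Prod.ext (ha.cox x hx y hy) (hb.cox x hx y hy),
    fun w hw => by rw [prod_pair]; exact Prod.ext (ha.rl w hw) (hb.rl w hw)⟩

theorem getW_ge {l : List (List ℕ)} : ∀ {i : ℕ}, l.length ≤ i → getW l i = [] := by
  induction l with
  | nil => exact fun _ => rfl
  | cons a l ih =>
    intro i hi
    obtain ⟨j, rfl⟩ : ∃ j, i = j + 1 := ⟨i - 1, by rw [List.length_cons] at hi; omega⟩
    exact ih (Nat.le_of_succ_le_succ hi)

theorem prod_rep {Γ : Type*} [Group Γ] (lt : ℕ → Γ) (w : List ℕ) (k : ℕ) :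
    ((List.replicate k w).flatten.map lt).prod = (w.map lt).prod ^ k := by
  rw [List.map_flatten, List.prod_flatten, List.map_replicate, List.map_replicate,
    List.prod_replicate]

theorem fi24_arith {k b c n : ℕ} (hn : n = 2 * 4089470473293004800) (h : k = (1 + 31671 + b) * n)
    (hb : k ≤ 306936 * n) (hc : c * b = n) (h25 : 25 ∣ c) (h29 : 29 ∣ k) (h7 : 343 ∣ k) :
    b = 275264 := by
  have c1 : Nat.Coprime 29 n := by rw [hn]; norm_num
  rw [h] at h29 h7 hb
  have h0 : 1 + 31671 + b ≤ 306936 := Nat.le_of_mul_le_mul_right hb (by omega)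
  have h1 : 29 ∣ 1 + 31671 + b := c1.dvd_mul_right.1 h29
  have h2 : 49 ∣ 1 + 31671 + b := by
    rw [hn, show 2 * 4089470473293004800 = 1168420135226572800 * 7 by norm_num, ← mul_assoc,
      show 343 = 49 * 7 by norm_num] at h7
    exact (by norm_num : Nat.Coprime 49 1168420135226572800).dvd_mul_right.1
      (Nat.dvd_of_mul_dvd_mul_right (by norm_num) h7)
  obtain ⟨m, hm⟩ : 29 * 49 ∣ 1 + 31671 + b := Nat.Coprime.mul_dvd_of_dvd_of_dvd (by norm_num) h1 h2
  obtain ⟨d, rfl⟩ := h25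
  have h3 : 25 * b ∣ n := ⟨d, by rw [← hc]; ring⟩
  have key : ∀ m < 217, 25 * (1421 * m - 31672) ∣ 2 * 4089470473293004800 → m = 216 := by
    decide +kernel
  have e : b = 1421 * m - 31672 := by omega
  have := key m (by omega) (by rw [← e, ← hn]; exact h3)
  omega

namespace Y24

variable {Γ : Type*} [Group Γ] {lt : ℕ → Γ} {σ : Γ →* ℤˣ}

abbrev V (a : ℕ) : Prop := 1 ≤ a ∧ a ≤ 12

theorem Rel.act (h : Rel lt) : Act lt (Gk lt 11) (H4.TC.rep lt tR) T V 306936 := (tab h).act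

theorem Rel.tr0 (h : Rel lt) {w : List ℕ} (hw : ∀ a ∈ w, V a) :
    (w.map lt).prod * (H4.TC.rep lt tR (trL T w 0))⁻¹ ∈ Gk lt 11 ∧ trL T w 0 < 306936 := by
  have := h.act.tr w hw 0 (by decide)
  rwa [(tab h).1, one_mul] at this

theorem U_V : ∀ s < 13, ∀ a ∈ U s, V a := by decide +kernel

/-- double coset representatives -/
noncomputable def D (lt : ℕ → Γ) (i : ℕ) : Γ := if i = 0 then 1 else if i = 1 then u lt 8 else u lt 12

theorem Rel.orb (h : Rel lt) {c : ℕ} (hc : c < 306936) (h0 : c ≠ 0) :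
    DCos (Gk lt 11) (u lt 8) (H4.TC.rep lt tR c) ∨ DCos (Gk lt 11) (u lt 12) (H4.TC.rep lt tR c) := by
  have key : ∀ x y z : Γ, x * y⁻¹ ∈ Gk lt 11 → DCos (Gk lt 11) y z → DCos (Gk lt 11) x z := by
    rintro x y _ h1 ⟨a, ha, b, hb, rfl⟩
    exact ⟨_, mul_mem ha (inv_mem h1), b, hb, by group⟩
  refine (orb_of_chk (tab h) (by decide) (fun _ hg => mem_Gk (Nat.lt_succ_of_le hg)) oall c hc h0).imp
    (key _ _ _ ?_) (key _ _ _ ?_)
  · have := (h.tr0 (U_V 8 (by decide))).1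
    rwa [cD1] at this
  · have := (h.tr0 (U_V 12 (by decide))).1
    rwa [cD2] at this

theorem St.cover (h : St lt σ) (g : Γ) : ∃ i < 306936, g * (H4.TC.rep lt tR i)⁻¹ ∈ Gk lt 11 :=
  (tab h.toRel).cover h.zero h.sq (by decide) g (h.top ▸ mem_top g)

theorem St.cov' (h : St lt σ) (g : Γ) :
    g ∈ Gk lt 11 ∨ DCos (Gk lt 11) (u lt 8) g ∨ DCos (Gk lt 11) (u lt 12) g := by
  obtain ⟨c, hc, h1⟩ := h.cover g
  have key : ∀ x : Γ, DCos (Gk lt 11) x (H4.TC.rep lt tR c) → DCos (Gk lt 11) x g := by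
    rintro x ⟨a, ha, b, hb, e⟩
    refine ⟨_, mul_mem h1 ha, b, hb, ?_⟩
    rw [mul_assoc, mul_assoc, ← mul_assoc a, ← e, inv_mul_cancel_right]
  by_cases h0 : c = 0
  · rw [h0, (tab h.toRel).1, inv_one, mul_one] at h1; exact Or.inl h1
  · exact Or.inr ((h.orb hc h0).imp (key _) (key _))

theorem St.cov (h : St lt σ) (g : Γ) : ∃ i < 3, DCos (Gk lt 11) (D lt i) g := by
  rcases h.cov' g with h1 | h1 | h1
  · exact ⟨0, by decide, g, h1, 1, one_mem _, by simp [D]⟩
  · exact ⟨1, by decide, h1⟩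
  · exact ⟨2, by decide, h1⟩

theorem St.dc_nc (h : St lt σ) {g : Γ}
    (h1 : DCos (Gk lt 11) (u lt 8) g ∨ DCos (Gk lt 11) (u lt 12) g) : g * lt 11 ≠ lt 11 * g := by
  intro e
  have key : ∀ s < 13, 1 ≤ s → DCos (Gk lt 11) (u lt s) g → lt s = lt 11 := by
    rintro s hs h0 ⟨a, ha, b, hb, rfl⟩
    have h2 : u lt s ∈ centralizer {lt 11} := by
      have := mul_mem (mul_mem (inv_mem (h.K_le ha)) (mem_centralizer_singleton_iff.2 e))
        (inv_mem (h.K_le hb))
      simpa [mul_assoc] using this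
    rw [← h.conj s hs h0, mul_assoc, ← mem_centralizer_singleton_iff.1 h2, inv_mul_cancel_left]
  rcases h1 with h1 | h1
  · exact h.ne (key 8 (by decide) (by decide) h1)
  · exact h.nc (by rw [key 12 (by decide) (by decide) h1])

theorem St.cent (h : St lt σ) : centralizer {lt 11} = Gk lt 11 :=
  le_antisymm (fun g hg => (h.cov' g).resolve_right fun h1 =>
    h.dc_nc h1 (mem_centralizer_singleton_iff.1 hg)) h.K_le

theorem St.notK (h : St lt σ) {w : List ℕ} (hw : ∀ a ∈ w, V a) (h0 : trL T w 0 ≠ 0) :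
    (w.map lt).prod ∉ Gk lt 11 := fun h1 => by
  obtain ⟨h2, h3⟩ := h.tr0 hw
  refine h.dc_nc (h.orb h3 h0) (h.cK ?_)
  simpa using mul_mem (inv_mem h2) h1

theorem St.ne_one (h : St lt σ) {v w : List ℕ} (hw : ∀ a ∈ v ++ w ++ v.reverse, V a)
    (h0 : trL T (v ++ w ++ v.reverse) 0 ≠ 0) : (w.map lt).prod ≠ 1 := fun e => h.notK hw h0 (by
  rw [List.map_append, List.map_append, List.prod_append, List.prod_append, e, mul_one,
    prod_rev h.sq, mul_inv_cancel]
  exact one_mem _)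

theorem St.central (h : St lt σ) {x : Γ} (hx : ∀ s < 13, 1 ≤ s → lt s * x = x * lt s) : x = 1 := by
  have h1 : ∀ y, y * x = x * y := fun y => mem_centralizer_singleton_iff.1 ((Gk_le fun c hc => by
    rcases Nat.eq_zero_or_pos c with rfl | h0
    · rw [h.zero]; exact one_mem _
    · exact mem_centralizer_singleton_iff.2 (hx c (by omega) h0)) (h.top ▸ mem_top y))
  rcases h.memK (h.cent ▸ mem_centralizer_singleton_iff.2 (h1 _).symm : x ∈ Gk lt 11) with h2 | h2
  · exact h.central0 h2 fun y _ => h1 y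
  · have h3 := h.central0 h2 fun y hy => by
      rw [← mul_assoc, h1 y, mul_assoc, h.cK (K0_le hy), mul_assoc]
    rw [mul_eq_one_iff_eq_inv, h.iv] at h3
    exact absurd (h3 ▸ h1 (lt 12)).symm h.nc

theorem St.one_of_chk (h : St lt σ) {lt' : ℕ → Γ} {T' : ℕ → ℕ → ℕ} {S : ℕ → Prop}
    (ha : Act lt' (Gk lt 11) (H4.TC.rep lt tR) T' S 306936) {w : List ℕ} (hw : ∀ a ∈ w, S a)
    (h1 : TC.chkB T' BP w = 0) : (w.map lt').prod = 1 := h.central fun s hs h0 => by
  have h2 := ha.fix hw (by decide) h1 _ (cU s hs h0)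
  have h3 : u lt s * _ ∈ _ := (h.tr0 (U_V s hs)).1
  have h4 := h.cK (mul_mem (mul_mem h3 h2) (inv_mem h3))
  rw [← h.conj s hs h0]
  generalize (w.map lt').prod = x at *
  generalize H4.TC.rep lt tR (trL T (U s) 0) = y at *
  calc _ = (u lt s)⁻¹ * (lt 11 * (u lt s * y⁻¹ * (y * x * y⁻¹) * (u lt s * y⁻¹)⁻¹)) * u lt s := by
        group
    _ = _ := by rw [← h4]; group

theorem St.fin (h : St lt σ) : Finite Γ ∧ Nat.card Γ ≤ 306936 * Nat.card (Gk lt 11) := by
  have : Finite (Gk lt 11) := Nat.finite_of_card_ne_zero (by rw [h.cardK]; norm_num)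
  obtain ⟨h1, h2⟩ := card_le_of_cover (L := ⊤) fun g _ => h.cover g
  exact ⟨Finite.of_equiv _ topEquiv.toEquiv, card_top.symm.trans_le h2⟩

/-! ### the Held group -/

noncomputable def hl (lt : ℕ → Γ) (a : ℕ) : Γ := ((HW a).map lt).prod

theorem HW_V (a : ℕ) : (∀ b ∈ HW a, V b) ∧ Even (HW a).length := by
  have e : ∀ a < 8, (∀ b ∈ HW a, V b) ∧ Even (HW a).length := by decide +kernel
  by_cases h : a < 8
  · exact e a h
  · rw [show HW a = [] from getW_ge (not_lt.1 h)]; simp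

theorem St.relH (h : St lt σ) : YHe.Rel (hl lt) := by
  have ha : Act (hl lt) (Gk lt 11) (H4.TC.rep lt tR) TH (fun _ => True) 306936 :=
    h.act.comp fun a => (HW_V a).1
  have key : ∀ w, TC.chkB TH BP w = 0 → (w.map (hl lt)).prod = 1 := fun w =>
    h.one_of_chk ha fun _ _ => trivial
  have hq : ∀ c, hl lt c * hl lt c = 1 := fun c => by
    by_cases hc : c < 8
    · simpa using key [c, c] (rng_step (all0 _) hQ c hc)
    · rw [hl, show HW c = [] from getW_ge (not_lt.1 hc)]; simp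
  exact ⟨rfl, hq, cox_of_chkCx (by decide +kernel) hq key hC,
    all_of_getW fun i hi => key _ (rng_step (all0 _) hR i hi)⟩

theorem St.he (h : St lt σ) : IsSimpleGroup (Gk (hl lt) 7) ∧ Nat.card (Gk (hl lt) 7) = 4030387200 :=
  have := pair_simple (YHe.bd7 (h.relH.prod He.relL)) (fun _ => He.qG_le) He.cardG He.simpleG
    (c := 7) (by decide) fun e => h.notK (HW_V 7).1 nH (e ▸ one_mem _ : hl lt 7 ∈ _)
  ⟨this.1, this.2.1⟩

theorem St.sg_prod (h : St lt σ) (w : List ℕ) (hw : ∀ a ∈ w, V a) :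
    σ (w.map lt).prod = (-1) ^ w.length := by
  induction w with
  | nil => simp
  | cons a w ih =>
    have h1 := hw a List.mem_cons_self
    rw [List.map_cons, List.prod_cons, map_mul, ih fun b hb => hw b (List.mem_cons_of_mem _ hb),
      h.sg a h1.1 h1.2, List.length_cons, pow_succ']

theorem St.he_le (h : St lt σ) : Gk (hl lt) 7 ≤ σ.ker := Gk_le fun c _ =>
  (h.sg_prod _ (HW_V c).1).trans (HW_V c).2.neg_one_pow

/-! ### the order -/

theorem Rel.memCk (h : Rel lt) (w : List ℕ) (hw : ∀ a ∈ w, a ≤ 11 ∧ fld Mx 4 15 (a + 16 * 12) = 2) :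
    (w.map lt).prod ∈ Gk lt 11 ⊓ centralizer {lt 12} :=
  list_prod_mem fun x hx => by
    obtain ⟨a, ha, rfl⟩ := List.mem_map.1 hx
    obtain ⟨h1, h2⟩ := hw a ha
    exact ⟨mem_Gk (by omega), mem_centralizer_singleton_iff.2 (h.cm (by omega) (by decide) h2)⟩

theorem St.dvd25 (h : St lt σ) : 25 ∣ Nat.card (Gk lt 11 ⊓ centralizer {lt 12} : Subgroup Γ) := by
  have := h.fin.1
  refine dvd_25 (f := lt 3) (h.memCk X5 (by decide +kernel)) (h.memCk Y5 (by decide +kernel))
    (prod_rep lt X5 5 ▸ h.one_of_chk h.act (by decide +kernel) cX)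
    (prod_rep lt Y5 5 ▸ h.one_of_chk h.act (by decide +kernel) cY) ?_
    (h.ne_one (by decide +kernel) nY) ?_ fun e => h.ne_one (by decide +kernel) nX ?_
  · have := h.one_of_chk h.act (by decide +kernel) cXY
    simp only [List.map_append, List.prod_append, prod_rev h.sq] at this
    rwa [mul_inv_eq_one, mul_inv_eq_iff_eq_mul] at this
  · have c : ∀ a < 16, fld Mx 4 15 (3 + 16 * a) = 2 → Commute (lt 3) (lt a) := fun a ha e =>
      h.cm (by decide) ha e
    exact (Commute.list_prod_right _ _ fun x hx => by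
      obtain ⟨a, ha, rfl⟩ := List.mem_map.1 hx
      have e : ∀ a ∈ Y5, a < 16 ∧ fld Mx 4 15 (3 + 16 * a) = 2 := by decide +kernel
      exact c a (e a ha).1 (e a ha).2).eq
  · rw [List.map_append, List.prod_append, List.map_cons, List.map_cons, List.prod_cons,
      List.prod_cons, prod_rev h.sq, e, mul_assoc, ← mul_assoc (lt 3), h.sq, one_mul, mul_inv_cancel]

theorem St.card (h : St lt σ) : Nat.card Γ = 306936 * Nat.card (Gk lt 11) := by
  have := h.fin.1
  have e1 : (D lt 1)⁻¹ * lt 11 * D lt 1 = lt 8 := h.conj 8 (by decide) (by decide)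
  have e2 : (D lt 2)⁻¹ * lt 11 * D lt 2 = lt 12 := h.conj 12 (by decide) (by decide)
  have h1 := card_rank3 (G' := ⊤) ((top_inf_eq _).trans h.cent) (D := D lt) (fun _ _ => mem_top _) rfl
    (fun g _ => h.cov g) (e1 ▸ h.ne) (e1 ▸ (h.cml (by decide)).symm) (e2 ▸ h.nc)
  have h2 := card_inf_mul_relIndex (Gk lt 11) (centralizer {lt 8})
  rw [h.cardC, h.cardK] at h2
  rw [card_top, e1, e2, show (centralizer {lt 8}).relIndex (Gk lt 11) = 31671 by omega] at h1
  have h29 : 29 ∣ Nat.card Γ := by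
    have : Fact (Nat.Prime 29) := ⟨by norm_num⟩
    rw [← orderOf_eq_prime (p := 29) (x := (W29.map lt).prod)
      (prod_rep lt W29 29 ▸ h.one_of_chk h.act (by decide +kernel) cW)
      fun e => h.notK (by decide +kernel) nW (e ▸ one_mem _)]
    exact orderOf_dvd_natCard _
  rw [h1, fi24_arith h.cardK h1 h.fin.2 (card_inf_mul_relIndex _ _) h.dvd25 h29
    ((by rw [h.he.2]; norm_num : 343 ∣ _).trans (card_subgroup_dvd_card (Gk (hl lt) 7)))]

end Y24

end Cfsg.Agent.H4
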