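import Cfsg.Agent.H4.F4MF

set_option autoImplicit false
set_option maxRecDepth 100000
set_option Elab.async false

namespace Cfsg.Agent.H4.F24

open Subgroup Cfsg.Agent.H5 Cfsg.Agent.H5.Mdl Cfsg.Agent.H4.TC

theorem LtC_3 : rng LtCf (nat_lit 50) (nat_lit 1) = 0 := by decide +kernel
theorem LtC_16 : rng LtCf (nat_lit 101) (nat_lit 1) = 0 := by decide +kernel
theorem LtC_32 : rng LtCf (nat_lit 147) (nat_lit 1) = 0 := by decide +kernel
theorem LtC_67 : rng LtCf (nat_lit 203) (nat_lit 1) = 0 := by decide +kernel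
theorem R1c : ((mul3 (nat_lit 783)) (Pm 3) ((mul3 (nat_lit 783)) (Pm 3) ((mul3 (nat_lit 783)) (Pm 3) (Pm 2)))) = (one2 (nat_lit 783)) := by decide +kernel
theorem R2c : ((mul3 (nat_lit 783)) (Lt 11) ((mul3 (nat_lit 783)) (Pm 6) ((mul3 (nat_lit 783)) (Pm 6) (Pm 6)))) = (one2 (nat_lit 783)) := by decide +kernel
theorem c3c : ((mul3 (nat_lit 783)) (Pm 8) ((mul3 (nat_lit 783)) (Lt 2) ((mul3 (nat_lit 783)) (Lt 3) (Lt 9)))) = (Pm 9) := by decide +kernel
theorem LtC_2 : rng LtCf (nat_lit 34) (nat_lit 16) = 0 := by decide +kernel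
theorem LtC_17 : rng LtCf (nat_lit 102) (nat_lit 12) = 0 := by decide +kernel
theorem LtC_37 : rng LtCf (nat_lit 152) (nat_lit 9) = 0 := by decide +kernel
theorem LtC_56 : rng LtCf (nat_lit 186) (nat_lit 7) = 0 := by decide +kernel
theorem LtC_12 : rng LtCf (nat_lit 97) (nat_lit 1) = 0 := by decide +kernel
theorem LtC_15 : rng LtCf (nat_lit 100) (nat_lit 1) = 0 := by decide +kernel
theorem LtC_21 : rng LtCf (nat_lit 117) (nat_lit 1) = 0 := by decide +kernel
theorem LtC_25 : rng LtCf (nat_lit 131) (nat_lit 1) = 0 := by decide +kernel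
theorem LtC_30 : rng LtCf (nat_lit 145) (nat_lit 1) = 0 := by decide +kernel
theorem LtC_34 : rng LtCf (nat_lit 149) (nat_lit 1) = 0 := by decide +kernel
theorem LtC_38 : rng LtCf (nat_lit 161) (nat_lit 1) = 0 := by decide +kernel
theorem LtC_41 : rng LtCf (nat_lit 164) (nat_lit 1) = 0 := by decide +kernel
theorem LtC_44 : rng LtCf (nat_lit 167) (nat_lit 1) = 0 := by decide +kernel
theorem LtC_49 : rng LtCf (nat_lit 179) (nat_lit 1) = 0 := by decide +kernel
theorem LtC_52 : rng LtCf (nat_lit 182) (nat_lit 1) = 0 := by decide +kernel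
theorem LtC_55 : rng LtCf (nat_lit 185) (nat_lit 1) = 0 := by decide +kernel
theorem LtC_59 : rng LtCf (nat_lit 195) (nat_lit 1) = 0 := by decide +kernel
theorem LtC_62 : rng LtCf (nat_lit 198) (nat_lit 1) = 0 := by decide +kernel
theorem LtC_66 : rng LtCf (nat_lit 202) (nat_lit 1) = 0 := by decide +kernel
theorem b3c : ((mul3 (nat_lit 783)) (Pm 5) ((mul3 (nat_lit 783)) (Pm 5) (Pm 5))) = (Pm 6) := by decide +kernel
theorem LtQ_1 : rng LtQf (nat_lit 2) (nat_lit 2) = 0 := by decide +kernel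
theorem LtQ_4 : rng LtQf (nat_lit 8) (nat_lit 2) = 0 := by decide +kernel
theorem c7c : ((mul3 (nat_lit 783)) (Pm 12) (Pm 12)) = (Pm 13) := by decide +kernel
theorem NE : chkN kA (Lt 8) (Lt 11) = 0 := by decide +kernel
theorem LtC_0 : rng LtCf (nat_lit 0) (nat_lit 33) = 0 := by decide +kernel
theorem LtC_4 : rng LtCf (nat_lit 51) (nat_lit 14) = 0 := by decide +kernel

end Cfsg.Agent.H4.F24
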