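import Cfsg.Agent.H4.F4MF

set_option autoImplicit false
set_option maxRecDepth 100000
set_option Elab.async false

namespace Cfsg.Agent.H4.F24

open Subgroup Cfsg.Agent.H5 Cfsg.Agent.H5.Mdl Cfsg.Agent.H4.TC

theorem LtC_5 : rng LtCf (nat_lit 65) (nat_lit 1) = 0 := by decide +kernel
theorem LtC_20 : rng LtCf (nat_lit 116) (nat_lit 1) = 0 := by decide +kernel
theorem LtC_46 : rng LtCf (nat_lit 169) (nat_lit 1) = 0 := by decide +kernel
theorem a1c : ((mul3 (nat_lit 783)) (Lt 1) ((mul3 (nat_lit 783)) (Lt 5) ((mul3 (nat_lit 783)) (Lt 6) (Lt 1)))) = (Pm 0) := by decide +kernel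
theorem b1c : ((mul3 (nat_lit 783)) (Lt 8) ((mul3 (nat_lit 783)) (Lt 6) ((mul3 (nat_lit 783)) (Lt 5) (Lt 1)))) = (Pm 4) := by decide +kernel
theorem c1c : ((mul3 (nat_lit 783)) (Lt 1) ((mul3 (nat_lit 783)) (Lt 5) ((mul3 (nat_lit 783)) (Lt 6) (Lt 8)))) = (Pm 7) := by decide +kernel
theorem c4c : ((mul3 (nat_lit 783)) (Pm 9) ((mul3 (nat_lit 783)) (Lt 10) ((mul3 (nat_lit 783)) (Lt 1) (Lt 4)))) = (Pm 10) := by decide +kernel
theorem LtC_7 : rng LtCf (nat_lit 67) (nat_lit 14) = 0 := by decide +kernel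
theorem LtC_11 : rng LtCf (nat_lit 84) (nat_lit 13) = 0 := by decide +kernel
theorem LtC_29 : rng LtCf (nat_lit 135) (nat_lit 10) = 0 := by decide +kernel
theorem LtC_6 : rng LtCf (nat_lit 66) (nat_lit 1) = 0 := by decide +kernel
theorem LtC_10 : rng LtCf (nat_lit 83) (nat_lit 1) = 0 := by decide +kernel
theorem LtC_14 : rng LtCf (nat_lit 99) (nat_lit 1) = 0 := by decide +kernel
theorem LtC_19 : rng LtCf (nat_lit 115) (nat_lit 1) = 0 := by decide +kernel
theorem LtC_24 : rng LtCf (nat_lit 130) (nat_lit 1) = 0 := by decide +kernel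
theorem LtC_27 : rng LtCf (nat_lit 133) (nat_lit 1) = 0 := by decide +kernel
theorem LtC_33 : rng LtCf (nat_lit 148) (nat_lit 1) = 0 := by decide +kernel
theorem LtC_36 : rng LtCf (nat_lit 151) (nat_lit 1) = 0 := by decide +kernel
theorem LtC_40 : rng LtCf (nat_lit 163) (nat_lit 1) = 0 := by decide +kernel
theorem LtC_43 : rng LtCf (nat_lit 166) (nat_lit 1) = 0 := by decide +kernel
theorem LtC_48 : rng LtCf (nat_lit 178) (nat_lit 1) = 0 := by decide +kernel
theorem LtC_51 : rng LtCf (nat_lit 181) (nat_lit 1) = 0 := by decide +kernel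
theorem LtC_54 : rng LtCf (nat_lit 184) (nat_lit 1) = 0 := by decide +kernel
theorem LtC_58 : rng LtCf (nat_lit 194) (nat_lit 1) = 0 := by decide +kernel
theorem LtC_61 : rng LtCf (nat_lit 197) (nat_lit 1) = 0 := by decide +kernel
theorem LtC_65 : rng LtCf (nat_lit 201) (nat_lit 1) = 0 := by decide +kernel
theorem a4c : ((mul3 (nat_lit 783)) (Pm 2) ((mul3 (nat_lit 783)) (Pm 2) (Pm 2))) = (Pm 3) := by decide +kernel
theorem LtQ_0 : rng LtQf (nat_lit 0) (nat_lit 2) = 0 := by decide +kernel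
theorem LtQ_3 : rng LtQf (nat_lit 6) (nat_lit 2) = 0 := by decide +kernel
theorem c5c : ((mul3 (nat_lit 783)) (Pm 10) (Lt 7)) = (Pm 11) := by decide +kernel
theorem Lt0 : Lt 0 = (one2 (nat_lit 783)) := by decide +kernel
theorem LtC_68 : rng LtCf (nat_lit 204) (nat_lit 52) = 0 := by decide +kernel

end Cfsg.Agent.H4.F24
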