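import Cfsg.Agent.H4.F4MC0
import Cfsg.Agent.H4.F4MC1
import Cfsg.Agent.H4.F4MC2

set_option autoImplicit false
set_option maxRecDepth 100000

namespace Cfsg.Agent.H4.F24

open Subgroup Cfsg.Agent.H5 Cfsg.Agent.H5.Mdl Cfsg.Agent.H4.TC

attribute [local irreducible] look Tr.get

theorem LtQ : ∀ i < 13, (chkSq (mul3 (nat_lit 783)) (one2 (nat_lit 783)) Lt) i = 0 :=
  (rng_step (rng_step (rng_step (rng_step (rng_step (rng_step (rng_step (all0 _) LtQ_0) LtQ_1) LtQ_2) LtQ_3) LtQ_4) LtQ_5) LtQ_6)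
theorem LtC : ∀ i < 256, (chkCox (mul3 (nat_lit 783)) Lt Y24.Mx) i = 0 :=
  (rng_step (rng_step (rng_step (rng_step (rng_step (rng_step (rng_step (rng_step (rng_step (rng_step (rng_step (rng_step (rng_step (rng_step (rng_step (rng_step (rng_step (rng_step (rng_step (rng_step (rng_step (rng_step (rng_step (rng_step (rng_step (rng_step (rng_step (rng_step (rng_step (rng_step (rng_step (rng_step (rng_step (rng_step (rng_step (rng_step (rng_step (rng_step (rng_step (rng_step (rng_step (rng_step (rng_step (rng_step (rng_step (rng_step (rng_step (rng_step (rng_step (rng_step (rng_step (rng_step (rng_step (rng_step (rng_step (rng_step (rng_step (rng_step (rng_step (rng_step (rng_step (rng_step (rng_step (rng_step (rng_step (rng_step (rng_step (rng_step (rng_step (all0 _) LtC_0) LtC_1) LtC_2) LtC_3) LtC_4) LtC_5) LtC_6) LtC_7) LtC_8) LtC_9) LtC_10) LtC_11) LtC_12) LtC_13) LtC_14) LtC_15) LtC_16) LtC_17) LtC_18)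 LtC_19) LtC_20) LtC_21) LtC_22) LtC_23) LtC_24) LtC_25) LtC_26) LtC_27) LtC_28) LtC_29) LtC_30) LtC_31) LtC_32) LtC_33) LtC_34) LtC_35) LtC_36) LtC_37) LtC_38) LtC_39) LtC_40) LtC_41) LtC_42) LtC_43) LtC_44) LtC_45) LtC_46) LtC_47) LtC_48) LtC_49) LtC_50) LtC_51) LtC_52) LtC_53) LtC_54) LtC_55) LtC_56) LtC_57) LtC_58) LtC_59) LtC_60) LtC_61) LtC_62) LtC_63) LtC_64) LtC_65) LtC_66) LtC_67) LtC_68)
theorem Ltop : mA.El ⊤ Lt :=
  (sq_of_chk mA (fun _ => rfl) LtQ).1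
noncomputable abbrev lt (c : ℕ) : GA := mA.elt (Lt c)
noncomputable def a1 : GA := lt 1 * (lt 5 * (lt 6 * (lt 1)))
theorem a1r : mA.φ a1 = mA.ev (Pm 0) :=
  (rep_mul (Ltop 1).elt (rep_mul (Ltop 5).elt (rep_mul (Ltop 6).elt (Ltop 1).elt))).trans (congrArg mA.ev a1c)
noncomputable def a2 : GA := a1 * (lt 2 * (lt 3 * (lt 1)))
theorem a2r : mA.φ a2 = mA.ev (Pm 1) :=
  (rep_mul a1r (rep_mul (Ltop 2).elt (rep_mul (Ltop 3).elt (Ltop 1).elt))).trans (congrArg mA.ev a2c)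
noncomputable def a3 : GA := a2 * (lt 4 * (lt 7))
theorem a3r : mA.φ a3 = mA.ev (Pm 2) :=
  (rep_mul a2r (rep_mul (Ltop 4).elt (Ltop 7).elt)).trans (congrArg mA.ev a3c)
noncomputable def a4 : GA := a3 * (a3 * (a3))
theorem a4r : mA.φ a4 = mA.ev (Pm 3) :=
  (rep_mul a3r (rep_mul a3r a3r)).trans (congrArg mA.ev a4c)
theorem R1 : a4 * (a4 * (a4 * (a3))) = 1 :=
  mA.inj ((rep_mul a4r (rep_mul a4r (rep_mul a4r a3r))).trans ((congrArg mA.ev R1c).trans (mA.ev_one.trans (map_one _).symm)))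
noncomputable def b1 : GA := lt 8 * (lt 6 * (lt 5 * (lt 1)))
theorem b1r : mA.φ b1 = mA.ev (Pm 4) :=
  (rep_mul (Ltop 8).elt (rep_mul (Ltop 6).elt (rep_mul (Ltop 5).elt (Ltop 1).elt))).trans (congrArg mA.ev b1c)
noncomputable def b2 : GA := b1 * (lt 2 * (lt 3 * (lt 4)))
theorem b2r : mA.φ b2 = mA.ev (Pm 5) :=
  (rep_mul b1r (rep_mul (Ltop 2).elt (rep_mul (Ltop 3).elt (Ltop 4).elt))).trans (congrArg mA.ev b2c)
noncomputable def b3 : GA := b2 * (b2 * (b2))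
theorem b3r : mA.φ b3 = mA.ev (Pm 6) :=
  (rep_mul b2r (rep_mul b2r b2r)).trans (congrArg mA.ev b3c)
theorem R2 : lt 11 * (b3 * (b3 * (b3))) = 1 :=
  mA.inj ((rep_mul (Ltop 11).elt (rep_mul b3r (rep_mul b3r b3r))).trans ((congrArg mA.ev R2c).trans (mA.ev_one.trans (map_one _).symm)))
noncomputable def c1 : GA := lt 1 * (lt 5 * (lt 6 * (lt 8)))
theorem c1r : mA.φ c1 = mA.ev (Pm 7) :=
  (rep_mul (Ltop 1).elt (rep_mul (Ltop 5).elt (rep_mul (Ltop 6).elt (Ltop 8).elt))).trans (congrArg mA.ev c1c)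
noncomputable def c2 : GA := c1 * (lt 12 * (lt 11 * (lt 1)))
theorem c2r : mA.φ c2 = mA.ev (Pm 8) :=
  (rep_mul c1r (rep_mul (Ltop 12).elt (rep_mul (Ltop 11).elt (Ltop 1).elt))).trans (congrArg mA.ev c2c)
noncomputable def c3 : GA := c2 * (lt 2 * (lt 3 * (lt 9)))
theorem c3r : mA.φ c3 = mA.ev (Pm 9) :=
  (rep_mul c2r (rep_mul (Ltop 2).elt (rep_mul (Ltop 3).elt (Ltop 9).elt))).trans (congrArg mA.ev c3c)
noncomputable def c4 : GA := c3 * (lt 10 * (lt 1 * (lt 4)))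
theorem c4r : mA.φ c4 = mA.ev (Pm 10) :=
  (rep_mul c3r (rep_mul (Ltop 10).elt (rep_mul (Ltop 1).elt (Ltop 4).elt))).trans (congrArg mA.ev c4c)
noncomputable def c5 : GA := c4 * (lt 7)
theorem c5r : mA.φ c5 = mA.ev (Pm 11) :=
  (rep_mul c4r (Ltop 7).elt).trans (congrArg mA.ev c5c)
noncomputable def c6 : GA := c5 * (c5 * (c5 * (c5)))
theorem c6r : mA.φ c6 = mA.ev (Pm 12) :=
  (rep_mul c5r (rep_mul c5r (rep_mul c5r c5r))).trans (congrArg mA.ev c6c)
noncomputable def c7 : GA := c6 * (c6)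
theorem c7r : mA.φ c7 = mA.ev (Pm 13) :=
  (rep_mul c6r c6r).trans (congrArg mA.ev c7c)
theorem R3 : c7 * (c7 * (c5)) = 1 :=
  mA.inj ((rep_mul c7r (rep_mul c7r c5r)).trans ((congrArg mA.ev R3c).trans (mA.ev_one.trans (map_one _).symm)))

theorem rel : Y24.Rel lt where
  zero := elt_of_eq_one Lt0
  sq := (sq_of_chk mA (fun _ => rfl) LtQ).2
  cox := cox_of_chk (by decide +kernel) Ltop (sq_of_chk mA (fun _ => rfl) LtQ).2 LtC
  r1 := by
    have e : (Y24.w1.map lt).prod = a3 := by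
      simp only [Y24.w1, a1, a2, a3, List.map_cons, List.map_nil, List.prod_cons, List.prod_nil,
        mul_one, mul_assoc]
    rw [e, ← R1, a4]
    simp only [pow_succ, pow_zero, one_mul, mul_assoc]
  r2 := by
    have e : ([8, 6, 5, 1, 2, 3, 4].map lt).prod = b2 := by
      simp only [b1, b2, List.map_cons, List.map_nil, List.prod_cons, List.prod_nil,
        mul_one, mul_assoc]
    rw [e, ← R2, b3]
    simp only [pow_succ, pow_zero, one_mul, mul_assoc]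
  r3 := by
    have e : (Y24.w3.map lt).prod = c5 := by
      simp only [Y24.w3, c1, c2, c3, c4, c5, List.map_cons, List.map_nil, List.prod_cons,
        List.prod_nil, mul_one, mul_assoc]
    rw [e, ← R3, c7, c6]
    simp only [pow_succ, pow_zero, one_mul, mul_assoc]

theorem ne : lt 8 ≠ lt 11 := keyA.ne NE (Ltop 8).elt (Ltop 11).elt

end Cfsg.Agent.H4.F24
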