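import Cfsg.Agent.H4.F24B
import Cfsg.Agent.H4.F4MS
import Cfsg.Prelude.Def_Sporadic

/-! The group `Fi₂₄`: transpositions and simplicity of the subgroup of index two. -/

set_option autoImplicit false

namespace Cfsg.Agent.H4

open Subgroup Cfsg.Agent.H5 Cfsg.Agent.H8.TC Cfsg.Agent.H4.TC

section general

variable {G : Type*} [Group G]

theorem three_transp' {H : Subgroup G} {d : G} (h1 : d ≠ 1) (h2 : d ^ 2 = 1)
    (hc : centralizer {d} = H) {D : ℕ → G} {r : ℕ} (hcov : ∀ g, ∃ i < r, DCos H (D i) g)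
    (hT : ∀ i < r, (d * ((D i)⁻¹ * d * D i)) ^ 2 = 1 ∨ (d * ((D i)⁻¹ * d * D i)) ^ 3 = 1)
    (hg : closure (conjugatesOf d) = ⊤) : IsThreeTranspositionClass (conjugatesOf d) := by
  have hcm : ∀ h ∈ H, h⁻¹ * d * h = d := fun h hh => by
    rw [mul_assoc, ← mem_centralizer_singleton_iff.1 (hc.ge hh), inv_mul_cancel_left]
  refine ⟨⟨fun e he => ?_, fun e he f hf => ?_⟩, ⟨d, IsConj.refl _, rfl⟩, hg⟩
  · obtain ⟨c, rfl⟩ := isConj_iff.1 he
    rw [← orderOf_eq_prime h2 h1]; exact (MulAut.conj c).orderOf_eq d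
  · obtain ⟨a, rfl⟩ := isConj_iff.1 he
    obtain ⟨b, rfl⟩ := isConj_iff.1 hf
    obtain ⟨i, hi, x, hx, y, hy, e⟩ := hcov (b⁻¹ * a)
    have e1 : a * d * a⁻¹ * (b * d * b⁻¹) = a * y⁻¹ * (d * ((D i)⁻¹ * d * D i)) * (a * y⁻¹)⁻¹ := by
      calc _ = a * (y⁻¹ * d * y) * ((b⁻¹ * a)⁻¹ * d * (b⁻¹ * a)) * a⁻¹ := by rw [hcm y hy]; group
        _ = a * (y⁻¹ * d * y) * (y⁻¹ * (D i)⁻¹ * (x⁻¹ * d * x) * D i * y) * a⁻¹ := by rw [e]; group
        _ = _ := by rw [hcm x hx]; group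
    rw [e1, conj_pow, conj_pow]
    exact (hT i hi).imp (fun h => by rw [h, mul_one, mul_inv_cancel])
      fun h => by rw [h, mul_one, mul_inv_cancel]

theorem orderOf_eq_of_dc {K M : Subgroup G} [hM : M.Normal] (h : M ⊓ K ≤ ⊥) {d x y : G} (hx : x ∈ M)
    (hy : y ∈ M) (h1 : DCos K d x) (h2 : DCos K d y) : orderOf x = orderOf y := by
  obtain ⟨a, ha, b, hb, rfl⟩ := h1
  obtain ⟨a', ha', b', hb', rfl⟩ := h2
  have h3 : (b * a)⁻¹ * (b' * a') ∈ M ⊓ K := by
    refine mem_inf.2 ⟨?_, K.mul_mem (K.inv_mem (K.mul_mem hb ha)) (K.mul_mem hb' ha')⟩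
    convert M.mul_mem (M.inv_mem (hM.conj_mem' _ hx a)) (hM.conj_mem' _ hy a') using 1
    group
  have h4 : b * a = b' * a' := inv_mul_eq_one.1 (h h3)
  rw [← (MulAut.conj (a' * a⁻¹)).orderOf_eq, MulAut.conj_apply]
  congr 1
  calc _ = a' * d * (b * a) * a'⁻¹ := by group
    _ = _ := by rw [h4]; group

theorem simple_of_index_two [Finite G] {H : Subgroup G} (h2 : H.index = 2)
    (key : ∀ M : Subgroup G, M.Normal → M ≠ ⊥ → H ≤ M) {p : ℕ} (hp : p.Prime)
    (h3 : p ∣ Nat.card H) (h4 : ¬ p * p ∣ Nat.card H) : IsSimpleGroup H := by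
  have hH := normal_of_index_eq_two h2
  have : Nontrivial H := Finite.one_lt_card_iff_nontrivial.1
    (hp.one_lt.trans_le (Nat.le_of_dvd Nat.card_pos h3))
  refine ⟨fun N hN => or_iff_not_imp_left.2 fun h0 => ?_⟩
  obtain ⟨l, hl⟩ := index_eq_two_iff.1 h2
  let c : H ≃* H := MulAut.conjNormal l
  let N' : Subgroup H := N.comap c.toMonoidHom
  have hN' : N'.Normal := hN.comap _
  have l1 : l ∉ H := fun h => by simpa [h, H.one_mem] using hl 1
  have l2 : l * l ∈ H := ((hl l).or).resolve_right l1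
  have nm : ∀ A : Subgroup H, A.Normal → (∀ x ∈ A, c x ∈ A) → (A.map H.subtype).Normal := by
    intro A hA h
    refine ⟨?_⟩
    rintro _ ⟨x, hx, rfl⟩ g
    rcases (hl (g * l⁻¹)).or with h5 | h5
    · exact ⟨_, hA.conj_mem x hx ⟨g, by simpa using h5⟩, rfl⟩
    · refine ⟨_, hA.conj_mem _ (h x hx) ⟨_, h5⟩, ?_⟩
      change g * l⁻¹ * (l * x * l⁻¹) * (g * l⁻¹)⁻¹ = g * x * g⁻¹
      group
  have cc : ∀ x ∈ N, c x ∈ N' := fun x hx => by
    have := hN.conj_mem x hx ⟨_, l2⟩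
    change c (c x) ∈ N
    convert this using 1
    apply Subtype.ext
    change l * (l * x * l⁻¹) * l⁻¹ = l * l * x * (l * l)⁻¹
    group
  have top : ∀ A : Subgroup H, A.Normal → (∀ x ∈ A, c x ∈ A) → A ≠ ⊥ → A = ⊤ := by
    intro A hA h h5
    refine eq_top_iff.2 fun x _ => ?_
    obtain ⟨y, hy, e⟩ := key _ (nm A hA h)
      (fun h6 => h5 ((map_eq_bot_iff_of_injective _ H.subtype_injective).1 h6)) x.2
    exact Subtype.ext e ▸ hy
  by_cases h5 : N ⊓ N' = ⊥
  · have h6 : N ⊔ N' = ⊤ := top _ inferInstance (fun x hx => by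
      obtain ⟨y, hy, z, hz, rfl⟩ := mem_sup_of_normal_right.1 hx
      rw [map_mul]
      exact mul_mem (mem_sup_right (cc y hy)) (mem_sup_left hz)) fun h6 =>
        h0 (le_bot_iff.1 (le_sup_left.trans h6.le))
    have h7 := (isComplement'_of_disjoint_and_mul_eq_univ (disjoint_iff.2 h5)
      (by rw [← mul_normal, h6, coe_top])).card_mul_card
    rw [show Nat.card N' = Nat.card N from
      Nat.card_congr (c.toEquiv.subtypeEquiv fun _ => Iff.rfl)] at h7
    rw [← h7] at h3 h4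
    have h8 := (hp.dvd_mul.1 h3).elim id id
    exact absurd (Nat.mul_dvd_mul h8 h8) h4
  · exact eq_top_iff.2 ((top _ inferInstance (fun x hx => mem_inf.2 ⟨hx.2, cc x hx.1⟩) h5).ge.trans inf_le_left)

end general

namespace Y24

variable {Γ : Type*} [Group Γ] {lt : ℕ → Γ} {σ : Γ →* ℤˣ}

theorem St.l1 (h : St lt σ) : lt 11 ≠ 1 := fun e => h.nc (by rw [e, one_mul, mul_one])

theorem St.transp (h : St lt σ) : IsThreeTranspositionClass (conjugatesOf (lt 11)) := by
  refine three_transp' h.l1 ((pow_two _).trans (h.sq 11)) h.cent h.cov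
    (all_succ (all_succ (all_succ all_nil (Or.inl ?_)) (Or.inl ?_)) (Or.inr ?_))
    (eq_top_iff.2 (h.top.ge.trans (Gk_le fun c hc => ?_)))
  · rw [show D lt 0 = 1 from rfl, inv_one, one_mul, mul_one, h.sq, one_pow]
  · rw [show D lt 1 = u lt 8 from rfl, h.conj 8 (by decide) (by decide),
      show 2 = fld Mx 4 15 (11 + 16 * 8) by decide +kernel]
    exact h.cox 11 (by decide) 8 (by decide)
  · rw [show D lt 2 = u lt 12 from rfl, h.conj 12 (by decide) (by decide),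
      show 3 = fld Mx 4 15 (11 + 16 * 12) by decide +kernel]
    exact h.cox 11 (by decide) 12 (by decide)
  · rcases Nat.eq_zero_or_pos c with rfl | h0
    · rw [h.zero]; exact one_mem _
    · exact subset_closure (isConj_iff.2 ⟨(u lt c)⁻¹, by rw [inv_inv, h.conj c (by omega) h0]⟩)

theorem St.max (h : St lt σ) {M : Subgroup Γ} (h1 : Gk lt 11 ≤ M) (h2 : ¬ M ≤ Gk lt 11) : M = ⊤ := by
  have m : ∀ c < 12, lt c ∈ M := fun c hc => h1 (mem_Gk hc)
  have key : lt 12 ∈ M := by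
    obtain ⟨g, hg, h3⟩ := SetLike.not_le_iff_exists.1 h2
    have dc : ∀ x, DCos (Gk lt 11) x g → x ∈ M := by
      rintro x ⟨a, ha, b, hb, rfl⟩
      simpa [mul_assoc] using mul_mem (mul_mem (inv_mem (h1 ha)) hg) (inv_mem (h1 hb))
    rcases (h.cov' g).resolve_left h3 with h4 | h4
    · have h5 : lt 12 * (lt 11 * (lt 8 * (lt 12 * 1))) ∈ M := dc _ h4
      have h6 := mul_mem (mul_mem h5 (m 6 (by decide))) (inv_mem h5)
      have c1 := h.cm (a := 12) (b := 6) (by decide) (by decide) (by decide +kernel)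
      have b1 := h.br (a := 8) (b := 6) (by decide) (by decide) (by decide +kernel)
      have b2 := h.br (a := 12) (b := 8) (by decide) (by decide) (by decide +kernel)
      have c2 := h.cK (mul_mem (mul_mem (mem_Gk (c := 8) (by decide)) (mem_Gk (c := 6) (by decide)))
        (mem_Gk (c := 8) (by decide)))
      have e : lt 12 * (lt 11 * (lt 8 * (lt 12 * 1))) * lt 6 * (lt 12 * (lt 11 * (lt 8 * (lt 12 * 1))))⁻¹
          = lt 6 * lt 8 * lt 12 * (lt 8 * lt 6) := by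
        calc _ = lt 12 * (lt 11 * (lt 8 * (lt 12 * lt 6 * (lt 12)⁻¹) * (lt 8)⁻¹) * (lt 11)⁻¹) *
              (lt 12)⁻¹ := by group
          _ = lt 12 * (lt 6 * lt 8 * lt 6) * lt 12 := by
            rw [c1, mul_inv_cancel_right, h.iv 8, ← c2, mul_inv_cancel_right, b1, h.iv 12]
          _ = lt 12 * lt 6 * lt 8 * (lt 6 * lt 12) := by group
          _ = lt 6 * lt 12 * lt 8 * (lt 12 * lt 6) :=
            congrArg₂ (· * ·) (congrArg (· * lt 8) c1) c1.symm
          _ = lt 6 * (lt 12 * lt 8 * lt 12) * lt 6 := by group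
          _ = _ := by rw [b2]; group
      rw [e] at h6
      exact (mul_mem_cancel_left (mul_mem (m 6 (by decide)) (m 8 (by decide)))).1
        ((mul_mem_cancel_right (mul_mem (m 8 (by decide)) (m 6 (by decide)))).1 h6)
    · have h5 : lt 12 * (lt 11 * 1) ∈ M := dc _ h4
      exact (mul_mem_cancel_right (mul_mem (m 11 (by decide)) (one_mem _))).1 h5
  exact eq_top_iff.2 (h.top.ge.trans (Gk_le fun c hc => hc.lt_or_eq.elim (m c) fun e => e ▸ key))

theorem St.ker_le (h : St lt σ) {M : Subgroup Γ} (hM : M.Normal) (h1 : Gk (l0 lt) 10 ≤ M) :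
    σ.ker ≤ M := by
  have m : ∀ c, 1 ≤ c → c ≤ 12 → lt c * lt 11 ∈ M := by
    have m0 : ∀ c, 1 ≤ c → c ≤ 10 → lt c * lt 11 ∈ M := fun c h2 h3 => by
      have := h1 (mem_Gk (c := c) (by omega))
      rwa [l0, if_pos ⟨h2, h3⟩] at this
    intro c h2 h3
    rcases h3.lt_or_eq with h4 | rfl
    · rcases (Nat.lt_succ_iff.1 h4).lt_or_eq with h5 | rfl
      · exact m0 c h2 (by omega)
      · rw [h.sq]; exact one_mem _
    · have h4 := m0 6 (by decide) (by decide)
      have h5 := mul_mem (inv_mem (hM.conj_mem _ h4 (lt 12))) h4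
      have c1 := h.cm (a := 12) (b := 6) (by decide) (by decide) (by decide +kernel)
      have b1 := h.br (a := 12) (b := 11) (by decide) (by decide) (by decide +kernel)
      have e : (lt 12 * (lt 6 * lt 11) * (lt 12)⁻¹)⁻¹ * (lt 6 * lt 11) = (lt 12 * lt 11)⁻¹ := by
        calc _ = lt 12 * (lt 11)⁻¹ * (lt 12 * lt 6)⁻¹ * lt 6 * lt 11 := by group
          _ = lt 12 * (lt 11)⁻¹ * (lt 12)⁻¹ * lt 11 := by rw [c1]; group
          _ = _ := by rw [mul_inv_rev, h.iv, h.iv, b1, mul_assoc, h.sq, mul_one]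
      rw [e] at h5
      exact inv_mem_iff.1 h5
  have key : ∀ c ≤ 12, ∀ x, x ∈ M ∧ σ x = 1 ∨ x * lt 11 ∈ M ∧ σ x = -1 →
      x * lt c ∈ M ∧ σ (x * lt c) = 1 ∨ x * lt c * lt 11 ∈ M ∧ σ (x * lt c) = -1 := by
    intro c hc x h2
    rcases Nat.eq_zero_or_pos c with rfl | h0
    · rwa [h.zero, mul_one]
    rw [map_mul, h.sg c h0 hc]
    rcases h2 with ⟨h2, h3⟩ | ⟨h2, h3⟩ <;> rw [h3]
    · exact Or.inr ⟨by rw [mul_assoc]; exact mul_mem h2 (m c h0 hc), rfl⟩
    · refine Or.inl ⟨?_, rfl⟩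
      have := mul_mem h2 (inv_mem (m c h0 hc))
      rwa [mul_inv_rev, ← mul_assoc, mul_inv_cancel_right, h.iv] at this
  have all : ∀ x ∈ Gk lt 12, x ∈ M ∧ σ x = 1 ∨ x * lt 11 ∈ M ∧ σ x = -1 := fun x hx => by
    induction hx using closure_induction_right with
    | one => exact Or.inl ⟨one_mem _, map_one _⟩
    | mul_right x hx y hy ih =>
      obtain ⟨c, hc, rfl⟩ := hy
      exact key c hc x ih
    | mul_inv_cancel x hx y hy ih =>
      obtain ⟨c, hc, rfl⟩ := hy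
      rw [h.iv]; exact key c hc x ih
  intro x hx
  refine ((all x (h.top ▸ mem_top x)).resolve_right fun h2 => ?_).1
  exact absurd ((MonoidHom.mem_ker.1 hx).symm.trans h2.2) (by decide)

theorem St.key (h : St lt σ) (M : Subgroup Γ) (hM : M.Normal) (h0 : M ≠ ⊥) : σ.ker ≤ M := by
  have := h.fin.1
  have h1 : ¬ M ≤ Gk lt 11 := fun h1 => h0 (eq_bot_iff.2 fun x hx => h.central fun s hs h2 => by
    have := h.cK (h1 (hM.conj_mem x hx (u lt s)))
    rw [← h.conj s hs h2]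
    calc _ = (u lt s)⁻¹ * (lt 11 * (u lt s * x * (u lt s)⁻¹)) * u lt s := by group
      _ = _ := by rw [← this]; group)
  have h2 : Gk lt 11 ⊔ M = ⊤ := h.max le_sup_left fun h2 => h1 (le_sup_right.trans h2)
  rcases h.fi23.1.eq_bot_or_eq_top_of_normal (M.subgroupOf _) inferInstance with h3 | h3
  swap
  · exact h.ker_le hM (subgroupOf_eq_top.1 h3)
  have h4 : ∀ x ∈ M, x ∈ Gk (l0 lt) 10 → x = 1 := fun x h4 h5 =>
    disjoint_def.1 (subgroupOf_eq_bot.1 h3) h4 h5
  have h5 : M ⊓ Gk lt 11 ≤ ⊥ := fun x hx => (h.memK hx.2).elim (h4 x hx.1) fun h5 => by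
    have h6 := h.central0 h5 fun y hy => by
      have h6 := h4 (y * (x * lt 11) * y⁻¹ * (x * lt 11)⁻¹) (by
        rw [← mul_assoc, mul_assoc _ (lt 11), ← h.cK (inv_mem (K0_le hy))]
        convert mul_mem (hM.conj_mem x hx.1 y) (inv_mem hx.1) using 1; group)
        (mul_mem (mul_mem (mul_mem hy h5) (inv_mem hy)) (inv_mem h5))
      rwa [mul_inv_eq_one, mul_inv_eq_iff_eq_mul] at h6
    rw [mul_eq_one_iff_eq_inv, h.iv] at h6
    have h7 : lt 11 ∈ M := h6 ▸ hx.1
    have h8 := hM.conj_mem' _ h7 (u lt 8)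
    rw [h.conj 8 (by decide) (by decide)] at h8
    exact absurd (h4 _ (mul_mem h8 h7) (mem_Gk (lt := l0 lt) (c := 8) (by decide))) h.al
  have h6 : Nat.card M = 306936 := by
    have e1 := M.index_mul_card
    rw [← relIndex_top_right, ← h2, relIndex_sup_right, ← inf_relIndex_right,
      le_bot_iff.1 h5, relIndex_bot_left, h.card, mul_comm] at e1
    exact Nat.eq_of_mul_eq_mul_right Nat.card_pos e1
  have ex : ∀ p : ℕ, p.Prime → p ∣ 306936 → ∃ x ∈ M, orderOf x = p ∧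
      (DCos (Gk lt 11) (u lt 8) x ∨ DCos (Gk lt 11) (u lt 12) x) := fun p hp hd => by
    have := Fact.mk hp
    obtain ⟨x, hx⟩ := exists_prime_orderOf_dvd_card' (G := M) p (h6 ▸ hd)
    rw [← orderOf_coe] at hx
    refine ⟨x, x.2, hx, (h.cov' x).resolve_left fun h7 => hp.one_lt.ne' ?_⟩
    rw [← hx, show (x : Γ) = 1 from h5 ⟨x.2, h7⟩, orderOf_one]
  obtain ⟨x, x1, x2, x3⟩ := ex 2 (by norm_num) (by norm_num)
  obtain ⟨y, y1, y2, y3⟩ := ex 3 (by norm_num) (by norm_num)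
  obtain ⟨z, z1, z2, z3⟩ := ex 7 (by norm_num) (by norm_num)
  have o := fun {d a b : Γ} => orderOf_eq_of_dc h5 (d := d) (x := a) (y := b)
  rcases x3 with x3 | x3 <;> rcases y3 with y3 | y3 <;> rcases z3 with z3 | z3 <;>
    first
    | (have := o x1 y1 x3 y3; omega)
    | (have := o x1 z1 x3 z3; omega)
    | (have := o y1 z1 y3 z3; omega)

theorem St.main {Γ : Type} [Group Γ] {lt : ℕ → Γ} {σ : Γ →* ℤˣ} (h : St lt σ) :
    ∃ _ : Finite Γ, Nat.card Γ = 2 * 1255205709190661721292800 ∧ ∃ D : Set Γ,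
      IsThreeTranspositionClass D ∧ Nat.card D = 306936 ∧
      (∀ d ∈ D, Nat.card (centralizer ({d} : Set Γ)) = 2 * 4089470473293004800 ∧
        ∃ K : Subgroup Γ, K ≤ centralizer ({d} : Set Γ) ∧ IsFi23 K) ∧
      ∃ H : Subgroup Γ, H.index = 2 ∧ IsFi24' H ∧ (∃ K : Subgroup H, IsFi23 K) ∧
        ∃ K : Subgroup H, IsHe K := by
  have := h.fin.1
  have hc : Nat.card Γ = 2 * 1255205709190661721292800 := by rw [h.card, h.cardK]
  have h1 : Nat.card σ.ker = 1255205709190661721292800 := by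
    have := card_sign σ (mem_top _) (h.sg 11 (by decide) (by decide))
    rw [card_top, top_inf_eq, hc] at this
    omega
  have h2 : σ.ker.index = 2 := by
    have := σ.ker.index_mul_card
    rw [h1, hc] at this
    omega
  have sub : ∀ K : Subgroup Γ, K ≤ σ.ker → IsSimpleGroup K →
      IsSimpleGroup (K.subgroupOf σ.ker) ∧ Nat.card (K.subgroupOf σ.ker) = Nat.card K :=
    fun K hK _ => ⟨(subgroupOfEquivOfLe hK).isSimpleGroup,
      Nat.card_congr (subgroupOfEquivOfLe hK).toEquiv⟩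
  have s1 := sub _ (h.K0_eq.ge.trans inf_le_right) h.fi23.1
  have s2 := sub _ h.he_le h.he.1
  refine ⟨this, hc, _, h.transp, ?_, fun d hd => ?_, σ.ker, h2, ⟨simple_of_index_two h2 h.key
    (p := 29) (by norm_num) (by rw [h1]; norm_num) (by rw [h1]; norm_num), h1⟩,
    ⟨_, s1.1, s1.2.trans h.fi23.2.1⟩, _, s2.1, s2.2.trans h.he.2⟩
  · have := (Gk lt 11).index_mul_card
    rw [h.card] at this
    rw [card_conjugatesOf, h.cent]
    exact Nat.eq_of_mul_eq_mul_right Nat.card_pos this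
  · obtain ⟨c, rfl⟩ := isConj_iff.1 hd
    obtain ⟨e⟩ := centralizer_conj_equiv c (lt 11)
    have := h.fi23.1
    let f := (Gk (l0 lt) 10).equivMapOfInjective (MulAut.conj c).toMonoidHom (MulAut.conj c).injective
    refine ⟨by rw [← Nat.card_congr e.toEquiv, h.cent, h.cardK], _, ?_, f.symm.isSimpleGroup,
      (Nat.card_congr f.toEquiv).symm.trans h.fi23.2.1⟩
    rintro _ ⟨x, hx, rfl⟩
    refine mem_centralizer_singleton_iff.2 ?_
    change c * x * c⁻¹ * (c * lt 11 * c⁻¹) = c * lt 11 * c⁻¹ * (c * x * c⁻¹)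
    calc _ = c * (x * lt 11) * c⁻¹ := by group
      _ = _ := by rw [h.cK (K0_le hx)]; group

theorem Rel.map {Γ' : Type*} [Group Γ'] {lt' : ℕ → Γ'} (f : Γ →* Γ') (hf : Function.Injective f)
    (e : ∀ c, f (lt c) = lt' c) (h : Rel lt') : Rel lt := by
  have p : ∀ w : List ℕ, f (w.map lt).prod = (w.map lt').prod := fun w => by
    rw [map_list_prod, List.map_map]; exact congrArg (fun g => (w.map g).prod) (funext e)
  refine ⟨hf ?_, fun c => hf ?_, fun a ha b hb => hf ?_, hf ?_, hf ?_, hf ?_⟩ <;>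
    simp only [map_pow, map_mul, map_one, e, p]
  exacts [h.zero, h.sq c, h.cox a ha b hb, h.r1, h.r2, h.r3]

/-- the signs of the letters -/
def sn (c : ℕ) : ℤˣ := if 1 ≤ c ∧ c ≤ 12 then -1 else 1

theorem rel_sn : Rel sn :=
  ⟨rfl, fun c => Int.units_mul_self _, by decide +kernel, by decide +kernel, by decide +kernel,
    by decide +kernel⟩

theorem Rel.prod {B : Type*} [Group B] {b : ℕ → B} (ha : Rel lt) (hb : Rel b) :
    Rel fun c => (lt c, b c) :=
  ⟨Prod.ext ha.zero hb.zero, fun c => Prod.ext (ha.sq c) (hb.sq c),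
    fun x hx y hy => Prod.ext (ha.cox x hx y hy) (hb.cox x hx y hy),
    by rw [prod_pair]; exact Prod.ext ha.r1 hb.r1, by rw [prod_pair]; exact Prod.ext ha.r2 hb.r2,
    by rw [prod_pair]; exact Prod.ext ha.r3 hb.r3⟩

theorem Rel.exists_st {Γ : Type} [Group Γ] {lt : ℕ → Γ} (h : Rel lt) (h1 : ∀ c, 12 < c → lt c = 1)
    (hne : lt 8 ≠ lt 11) :
    ∃ (G : Type) (_ : Group G) (lt' : ℕ → G) (σ : G →* ℤˣ), St lt' σ := by
  have m : ∀ c, (lt c, sn c) ∈ Gk (fun c => (lt c, sn c)) 12 := fun c => by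
    by_cases hc : c < 13
    · exact mem_Gk (lt := fun c => (lt c, sn c)) hc
    · rw [h1 c (by omega), sn, if_neg (by omega)]; exact one_mem _
  refine ⟨Gk (fun c => (lt c, sn c)) 12, inferInstance, fun c => ⟨_, m c⟩,
    (MonoidHom.snd _ _).comp (Subgroup.subtype _),
    (h.prod rel_sn).map (Subgroup.subtype _) (subtype_injective _) fun _ => rfl, ?_,
    fun e => hne (congrArg (fun x => x.1.1) e), fun c h2 h3 => if_pos ⟨h2, h3⟩⟩
  apply map_injective (subtype_injective _)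
  rw [map_Gk, ← MonoidHom.range_eq_map, range_subtype]
  rfl

end Y24

theorem F24.exists_st : ∃ (G : Type) (_ : Group G) (lt' : ℕ → G) (σ : G →* ℤˣ), Y24.St lt' σ :=
  F24.rel.exists_st (fun c hc => elt_of_eq_one (by rw [F24.Lt, pad_eq, if_neg (not_lt.2 hc)]; rfl)) F24.ne

end Cfsg.Agent.H4
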