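import Cfsg.Agent.H4.F4MF

set_option autoImplicit false
set_option maxRecDepth 100000
set_option Elab.async false

namespace Cfsg.Agent.H4.F24

open Subgroup Cfsg.Agent.H5 Cfsg.Agent.H5.Mdl Cfsg.Agent.H4.TC

theorem LtC_1 : rng LtCf (nat_lit 33) (nat_lit 1) = 0 := by decide +kernel
theorem LtC_8 : rng LtCf (nat_lit 81) (nat_lit 1) = 0 := by decide +kernel
theorem LtC_28 : rng LtCf (nat_lit 134) (nat_lit 1) = 0 := by decide +kernel
theorem LtC_64 : rng LtCf (nat_lit 200) (nat_lit 1) = 0 := by decide +kernel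
theorem a2c : ((mul3 (nat_lit 783)) (Pm 0) ((mul3 (nat_lit 783)) (Lt 2) ((mul3 (nat_lit 783)) (Lt 3) (Lt 1)))) = (Pm 1) := by decide +kernel
theorem b2c : ((mul3 (nat_lit 783)) (Pm 4) ((mul3 (nat_lit 783)) (Lt 2) ((mul3 (nat_lit 783)) (Lt 3) (Lt 4)))) = (Pm 5) := by decide +kernel
theorem c2c : ((mul3 (nat_lit 783)) (Pm 7) ((mul3 (nat_lit 783)) (Lt 12) ((mul3 (nat_lit 783)) (Lt 11) (Lt 1)))) = (Pm 8) := by decide +kernel
theorem c6c : ((mul3 (nat_lit 783)) (Pm 11) ((mul3 (nat_lit 783)) (Pm 11) ((mul3 (nat_lit 783)) (Pm 11) (Pm 11)))) = (Pm 12) := by decide +kernel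
theorem LtC_22 : rng LtCf (nat_lit 118) (nat_lit 11) = 0 := by decide +kernel
theorem LtC_47 : rng LtCf (nat_lit 170) (nat_lit 8) = 0 := by decide +kernel
theorem LtC_9 : rng LtCf (nat_lit 82) (nat_lit 1) = 0 := by decide +kernel
theorem LtC_13 : rng LtCf (nat_lit 98) (nat_lit 1) = 0 := by decide +kernel
theorem LtC_18 : rng LtCf (nat_lit 114) (nat_lit 1) = 0 := by decide +kernel
theorem LtC_23 : rng LtCf (nat_lit 129) (nat_lit 1) = 0 := by decide +kernel
theorem LtC_26 : rng LtCf (nat_lit 132) (nat_lit 1) = 0 := by decide +kernel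
theorem LtC_31 : rng LtCf (nat_lit 146) (nat_lit 1) = 0 := by decide +kernel
theorem LtC_35 : rng LtCf (nat_lit 150) (nat_lit 1) = 0 := by decide +kernel
theorem LtC_39 : rng LtCf (nat_lit 162) (nat_lit 1) = 0 := by decide +kernel
theorem LtC_42 : rng LtCf (nat_lit 165) (nat_lit 1) = 0 := by decide +kernel
theorem LtC_45 : rng LtCf (nat_lit 168) (nat_lit 1) = 0 := by decide +kernel
theorem LtC_50 : rng LtCf (nat_lit 180) (nat_lit 1) = 0 := by decide +kernel
theorem LtC_53 : rng LtCf (nat_lit 183) (nat_lit 1) = 0 := by decide +kernel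
theorem LtC_57 : rng LtCf (nat_lit 193) (nat_lit 1) = 0 := by decide +kernel
theorem LtC_60 : rng LtCf (nat_lit 196) (nat_lit 1) = 0 := by decide +kernel
theorem LtC_63 : rng LtCf (nat_lit 199) (nat_lit 1) = 0 := by decide +kernel
theorem a3c : ((mul3 (nat_lit 783)) (Pm 1) ((mul3 (nat_lit 783)) (Lt 4) (Lt 7))) = (Pm 2) := by decide +kernel
theorem R3c : ((mul3 (nat_lit 783)) (Pm 13) ((mul3 (nat_lit 783)) (Pm 13) (Pm 11))) = (one2 (nat_lit 783)) := by decide +kernel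
theorem LtQ_2 : rng LtQf (nat_lit 4) (nat_lit 2) = 0 := by decide +kernel
theorem LtQ_5 : rng LtQf (nat_lit 10) (nat_lit 2) = 0 := by decide +kernel
theorem LtQ_6 : rng LtQf (nat_lit 12) (nat_lit 1) = 0 := by decide +kernel

end Cfsg.Agent.H4.F24
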