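import Cfsg.Agent.H4.F4MD0
import Cfsg.Agent.H4.F4MD1

set_option autoImplicit false
set_option maxRecDepth 100000

namespace Cfsg.Agent.H4.F24

open Subgroup Cfsg.Agent.H5 Cfsg.Agent.H5.Mdl Cfsg.Agent.H4.TC

noncomputable def LtQf : ℕ → ℕ := chkSq (mul3 (nat_lit 783)) (one2 (nat_lit 783)) Lt
noncomputable def LtCf : ℕ → ℕ := chkCox (mul3 (nat_lit 783)) Lt Y24.Mx

end Cfsg.Agent.H4.F24
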