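import Cfsg.Agent.H4.TC4
import Cfsg.Agent.H4.Y24H

set_option autoImplicit false
set_option maxRecDepth 100000

namespace Cfsg.Agent.H4.F24

open Subgroup Cfsg.Agent.H5 Cfsg.Agent.H5.Mdl Cfsg.Agent.H4.TC

abbrev GA : Type := GL (Fin 783) (ZMod 3)
noncomputable abbrev φA : GA →* Matrix (Fin 783) (Fin 783) (ZMod 3) := Units.coeHom _
noncomputable abbrev mA := md3 (ZMod 3) 783 φA Units.val_injective
abbrev kA : ℕ → ℕ := pl1 (Nat.mul 783 783)
theorem keyA : Key mA kA := key3 _ _ _ _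

end Cfsg.Agent.H4.F24
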