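import Cfsg.Agent.H4.HeBF

set_option autoImplicit false
set_option maxRecDepth 100000
set_option Elab.async false

namespace Cfsg.Agent.H4.He

open Subgroup Cfsg.Agent.H5 Cfsg.Agent.H5.Mdl Cfsg.Agent.H4.TC

theorem LtC_0 : rng LtCf (nat_lit 0) (nat_lit 256) = 0 := by decide +kernel
theorem LtR_0 : rng LtRf (nat_lit 0) (nat_lit 5) = 0 := by decide +kernel
theorem WW_0 : rng WWf (nat_lit 0) (nat_lit 10) = 0 := by decide +kernel
theorem Lt0 : Lt 0 = (one2 (nat_lit 51)) := by decide +kernel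
theorem WE_0 : rng WEf (nat_lit 0) (nat_lit 8) = 0 := by decide +kernel
theorem WT3 : (mul2 (nat_lit 51)) (wd (mul2 (nat_lit 51)) (one2 (nat_lit 51)) Wp [nat_lit 16, nat_lit 15, nat_lit 17, nat_lit 15, nat_lit 17, nat_lit 12, nat_lit 12, nat_lit 13, nat_lit 13, nat_lit 12, nat_lit 8, nat_lit 11, nat_lit 11, nat_lit 8, nat_lit 2, nat_lit 4, nat_lit 3, nat_lit 5, nat_lit 4, nat_lit 5, nat_lit 7, nat_lit 5, nat_lit 4]) (qD 1) = (one2 (nat_lit 51)) := by decide +kernel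
theorem WT1 : (mul2 (nat_lit 51)) (wd (mul2 (nat_lit 51)) (one2 (nat_lit 51)) Wp [nat_lit 16, nat_lit 17, nat_lit 15, nat_lit 13, nat_lit 14, nat_lit 12, nat_lit 13, nat_lit 14, nat_lit 8, nat_lit 10, nat_lit 9, nat_lit 10, nat_lit 8, nat_lit 10]) (Hg 1) = (one2 (nat_lit 51)) := by decide +kernel
theorem WT2 : (mul2 (nat_lit 51)) (wd (mul2 (nat_lit 51)) (one2 (nat_lit 51)) Wp [nat_lit 15, nat_lit 17, nat_lit 15, nat_lit 15, nat_lit 13, nat_lit 13, nat_lit 12, nat_lit 11, nat_lit 11, nat_lit 8, nat_lit 10]) (Hg 2) = (one2 (nat_lit 51)) := by decide +kernel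
theorem LtQ_0 : rng LtQf (nat_lit 0) (nat_lit 8) = 0 := by decide +kernel
theorem WT0 : (mul2 (nat_lit 51)) (wd (mul2 (nat_lit 51)) (one2 (nat_lit 51)) Wp [nat_lit 16, nat_lit 16, nat_lit 16, nat_lit 17, nat_lit 12, nat_lit 12]) (Hg 0) = (one2 (nat_lit 51)) := by decide +kernel

end Cfsg.Agent.H4.He
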