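import Cfsg.Agent.H4.HeBD0

set_option autoImplicit false
set_option maxRecDepth 100000

namespace Cfsg.Agent.H4.He

open Subgroup Cfsg.Agent.H5 Cfsg.Agent.H5.Mdl Cfsg.Agent.H4.TC

noncomputable def LtQf : ℕ → ℕ := chkSq (mul2 (nat_lit 51)) (one2 (nat_lit 51)) Lt
noncomputable def LtCf : ℕ → ℕ := chkCx (fun w => Nat.xor (wd (mul2 (nat_lit 51)) (one2 (nat_lit 51)) Lt w) (one2 (nat_lit 51))) YHe.Mx
noncomputable def LtRf : ℕ → ℕ := fun i => Nat.xor (wd (mul2 (nat_lit 51)) (one2 (nat_lit 51)) Lt (getW YHe.RL i)) (one2 (nat_lit 51))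
noncomputable def WEf : ℕ → ℕ := fun s => Nat.xor (Lt s) (Wp s)
noncomputable def WWf : ℕ → ℕ := chkPl (mul2 (nat_lit 51)) Wp [[nat_lit 2, nat_lit 2, nat_lit 4, nat_lit 5, nat_lit 4, nat_lit 2, nat_lit 5, nat_lit 4, nat_lit 5, nat_lit 4],
  [nat_lit 2, nat_lit 2, nat_lit 4, nat_lit 1, nat_lit 3, nat_lit 2, nat_lit 1, nat_lit 4],
  [nat_lit 7, nat_lit 7, nat_lit 5, nat_lit 4, nat_lit 5, nat_lit 7, nat_lit 2, nat_lit 7, nat_lit 5, nat_lit 4, nat_lit 5],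
  [nat_lit 2, nat_lit 7, nat_lit 5, nat_lit 4, nat_lit 1, nat_lit 5, nat_lit 4, nat_lit 1, nat_lit 5, nat_lit 4, nat_lit 5, nat_lit 7, nat_lit 1, nat_lit 4],
  [nat_lit 8, nat_lit 11, nat_lit 8, nat_lit 10, nat_lit 10, nat_lit 11, nat_lit 10, nat_lit 9],
  [nat_lit 11, nat_lit 11, nat_lit 11, nat_lit 8, nat_lit 8, nat_lit 9],
  [nat_lit 11, nat_lit 8, nat_lit 11, nat_lit 10, nat_lit 10, nat_lit 9, nat_lit 8],
  [nat_lit 14, nat_lit 12, nat_lit 13, nat_lit 12, nat_lit 13, nat_lit 14, nat_lit 14],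
  [nat_lit 13, nat_lit 13, nat_lit 12, nat_lit 13],
  [nat_lit 12, nat_lit 12, nat_lit 13, nat_lit 14, nat_lit 14, nat_lit 12, nat_lit 12]] (nat_lit 8)

end Cfsg.Agent.H4.He
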