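import Cfsg.Agent.H4.DCY
import Cfsg.Prelude.Def_Classical

/-! The field with four elements; models of `Sp₄(4)` and `SU₆(2)` with upper bounds for the orders. -/

set_option autoImplicit false

namespace Cfsg.Agent.H4

open Subgroup Cfsg.Agent.H5 Cfsg.Agent.H5.Mdl Matrix

abbrev K4 : Type := GaloisField 2 2

noncomputable instance instFintypeK4 : Fintype K4 := Fintype.ofFinite _

noncomputable instance instDecEqK4 : DecidableEq K4 := Classical.decEq _

theorem card_K4 : Fintype.card K4 = 4 := by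
  rw [← Nat.card_eq_fintype_card, GaloisField.card 2 2 (by norm_num)]; norm_num

theorem exists_om : ∃ ω : K4, ω ^ 2 + ω + 1 = 0 := by
  obtain ⟨g, hg⟩ := IsCyclic.exists_generator (α := K4ˣ)
  have h3 : orderOf g = 3 := by
    rw [orderOf_eq_card_of_forall_mem_zpowers hg, Nat.card_units, Nat.card_eq_fintype_card, card_K4]
  have h1 : (g : K4) ≠ 1 := fun h => by
    rw [Units.val_eq_one.1 h, orderOf_one] at h3; omega
  have h2 : (g : K4) ^ 3 = 1 := by rw [← Units.val_pow_eq_pow_val, ← h3, pow_orderOf_eq_one]; rfl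
  refine ⟨g, mul_left_cancel₀ (sub_ne_zero.2 h1) ?_⟩
  linear_combination h2

noncomputable def om : K4 := exists_om.choose

theorem hom : om ^ 2 + om + 1 = 0 := exists_om.choose_spec

/-- conjugation on entries -/
def cj4 (x : ℕ) : ℕ := Nat.xor x (Nat.shiftRight x 1)

theorem el4_cj4 {x : ℕ} (hx : x < 4) : cj4 x < 4 ∧ el4 om (cj4 x) = el4 om x ^ 2 := by
  have h2 : (2 : K4) = 0 := CharTwo.two_eq_zero
  have h := omega_sq hom
  interval_cases x
  · exact ⟨by decide, by rw [show cj4 0 = 0 from rfl, el4_zero]; simp⟩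
  · exact ⟨by decide, by rw [show cj4 1 = 1 from rfl, el4_one]; simp⟩
  · exact ⟨by decide, by rw [show cj4 2 = 3 from rfl, el4_two, el4_three, h]⟩
  · refine ⟨by decide, ?_⟩
    rw [show cj4 3 = 2 from rfl, el4_two, el4_three]
    linear_combination -h - (1 + om) * h2

noncomputable def tr4 (d a : ℕ) : ℕ := mk4 d d fun i j => e4 d a j i

noncomputable def ct4 (d a : ℕ) : ℕ := mk4 d d fun i j => cj4 (e4 d a j i)

section

variable {ι : Type*} {d : ℕ} (e : ι ≃ Fin d)

theorem ev4_tr4 (a : ℕ) : ev4 om e (tr4 d a) = (ev4 om e a)ᵀ := by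
  funext i j
  simp only [ev4, transpose_apply, ent4_eq_el4, tr4]
  rw [e4_mk4 (fun i j => e4 d a j i) (e j).2 (e i).2 (e4_lt _ _ _ _)]

theorem ev4_ct4 (a : ℕ) (i j : ι) : ev4 om e (ct4 d a) i j = ev4 om e a j i ^ 2 := by
  simp only [ev4, ent4_eq_el4, ct4]
  rw [e4_mk4 (fun i j => cj4 (e4 d a j i)) (e j).2 (e i).2 (el4_cj4 (e4_lt _ _ _ _)).1,
    (el4_cj4 (e4_lt _ _ _ _)).2]

theorem vec4_eq (x : ℕ) (i : ι) : vec4 om e x i = el4 om (e4 d x 0 (e i)) := ent4_eq_el4 _ _ _ _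

theorem e4_of_vec4 {x k : ℕ} (hk : k < 4) {i : ι} (h : vec4 om e x i = el4 om k) :
    e4 d x 0 (e i) = k := el4_inj hom (e4_lt _ _ _ _) hk ((vec4_eq e x i).symm.trans h)

end

attribute [irreducible] tr4 ct4

theorem el4_cube {x : ℕ} (hx : x < 4) : el4 om x * el4 om x ^ 2 = ((min x 1 : ℕ) : K4) := by
  have h2 : (2 : K4) = 0 := CharTwo.two_eq_zero
  have h := hom
  interval_cases x
  · simp [el4_zero]
  · simp [el4_one]
  · rw [el4_two, show min 2 1 = 1 from rfl]; push_cast; linear_combination (om - 1) * h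
  · rw [el4_three, show min 3 1 = 1 from rfl]; push_cast; linear_combination (om + 2) * h - h2

theorem odd_of_cast_eq_one {n : ℕ} (h : (n : K4) = 1) : n % 2 = 1 := by
  rcases Nat.mod_two_eq_zero_or_one n with h1 | h1
  · rw [(CharP.cast_eq_zero_iff K4 2 n).2 (Nat.dvd_of_mod_eq_zero h1)] at h
    exact absurd h zero_ne_one
  · exact h1

/-! ### `SU₆(2)` -/

abbrev SU6 : Type := SU 6 K4 2

noncomputable def suφ : SU6 →* Matrix (Fin 6) (Fin 6) K4 := (slToMat 6 K4).comp (SU 6 K4 2).subtype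

theorem suφ_inj : Function.Injective suφ := fun _ _ h => Subtype.ext (Subtype.ext h)

noncomputable abbrev mU : Mdl SU6 (Matrix (Fin 6) (Fin 6) K4) := md4 (Equiv.refl _) hom suφ suφ_inj

/-- `a` is unitary and has order dividing `n` -/
noncomputable def chkU (a n : ℕ) : ℕ :=
  Nat.add (Nat.xor (mulF 6 (ct4 6 a) a) (oneF 6))
    (Nat.add (Nat.xor (pw (mulF 6) (oneF 6) a n) (oneF 6)) (Nat.xor (Nat.gcd n 3) 1))

theorem in_SU6 {a n : ℕ} (h : chkU a n = 0) : mU.In ⊤ a := by
  obtain ⟨h1, h2⟩ := add_eq_zero' h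
  obtain ⟨h2, h3⟩ := add_eq_zero' h2
  have e1 : mU.ev (mU.mul (ct4 6 a) a) = mU.ev mU.one := congrArg mU.ev (xor_eq_zero' h1)
  rw [mU.ev_mul (ct4 6 a) a, mU.ev_one] at e1
  have e2 : mU.ev (mU.powC a n) = mU.ev mU.one := congrArg mU.ev (xor_eq_zero' h2)
  rw [ev_powC, mU.ev_one] at e2
  have hd : (mU.ev a).det = 1 := by
    have d1 := congrArg det e2
    rw [det_pow, det_one] at d1
    have d0 : (mU.ev a).det ≠ 0 := fun h0 => by
      have := congrArg det e1
      rw [det_mul, h0, mul_zero, det_one] at this; exact zero_ne_one this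
    have d3 : (mU.ev a).det ^ 3 = 1 := by
      have := FiniteField.pow_card_sub_one_eq_one _ d0
      rwa [card_K4] at this
    have := pow_gcd_eq_one.2 ⟨d1, d3⟩
    rwa [show Nat.gcd n 3 = 1 from xor_eq_zero' h3, pow_one] at this
  refine ⟨⟨⟨mU.ev a, hd⟩, fun u v => ?_⟩, mem_top _, rfl⟩
  change hermForm 6 K4 2 (mU.ev a *ᵥ u) (mU.ev a *ᵥ v) = _
  have e3 : ∀ k j, ∑ i, mU.ev a i k ^ 2 * mU.ev a i j = if k = j then 1 else 0 := fun k j => by
    have := congrFun (congrFun e1 k) j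
    rw [mul_apply, one_apply] at this
    rw [← this]
    exact Finset.sum_congr rfl fun i _ => congrArg (· * mU.ev a i j) (ev4_ct4 (Equiv.refl _) a k i).symm
  simp only [hermForm, mulVec, dotProduct, sum_pow_char, mul_pow, Finset.sum_mul_sum]
  rw [Finset.sum_comm]
  refine Finset.sum_congr rfl fun j _ => ?_
  rw [Finset.sum_comm]
  have : ∀ k, ∑ i, mU.ev a i j * u j * (mU.ev a i k ^ 2 * v k ^ 2) =
      if k = j then u j * v k ^ 2 else 0 := fun k => by
    have : ∑ i, mU.ev a i j * u j * (mU.ev a i k ^ 2 * v k ^ 2) =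
        (∑ i, mU.ev a i k ^ 2 * mU.ev a i j) * (u j * v k ^ 2) := by
      rw [Finset.sum_mul]; exact Finset.sum_congr rfl fun i _ => by ring
    rw [this, e3]; split_ifs <;> simp
  simp only [this, Finset.sum_ite_eq', Finset.mem_univ, if_true]

/-- the stabiliser of the first `j` basis vectors -/
noncomputable def stU (j : ℕ) : Subgroup SU6 where
  carrier := {g | ∀ i : Fin 6, i.1 < j → suφ g *ᵥ Pi.single i 1 = Pi.single i 1}
  mul_mem' {a b} ha hb i hi := by rw [map_mul, ← mulVec_mulVec, hb i hi, ha i hi]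
  one_mem' i _ := by rw [map_one, one_mulVec]
  inv_mem' {a} ha i hi := by
    conv_lhs => rw [← ha i hi, mulVec_mulVec, ← map_mul, inv_mul_cancel, map_one, one_mulVec]

def cU (j x : ℕ) : Bool :=
  (List.range j).all (fun i => e4 6 x 0 i == 0) &&
    ((min (e4 6 x 0 0) 1 + min (e4 6 x 0 1) 1 + min (e4 6 x 0 2) 1 + min (e4 6 x 0 3) 1 +
      min (e4 6 x 0 4) 1 + min (e4 6 x 0 5) 1) % 2 == 1)

theorem col_zero {j : Fin 6} {g : SU6} (hg : g ∈ stU j) (i : Fin 6) (hi : i.1 < j) :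
    (suφ g *ᵥ Pi.single j 1) i = 0 := by
  have h : hermForm 6 K4 2 (suφ g *ᵥ Pi.single j 1) (suφ g *ᵥ Pi.single i 1) = _ :=
    g.2 (Pi.single j 1) (Pi.single i 1)
  rw [hg i hi] at h
  have hne : i ≠ j := fun e => by rw [e] at hi; omega
  simpa [hermForm, Pi.single_apply, hne, hne.symm] using h

theorem stU_step (j : Fin 6) {n B : ℕ} (hn : (List.range 4096).countP (cU j) = n)
    (hB : Nat.card (stU (j + 1)) ≤ B) : Nat.card (stU j) ≤ n * B := by
  refine card_le_of_codes (x := (⟨Pi.single j 1⟩ : Vi suφ))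
    (fun x => (⟨vec4 om (Equiv.refl _) x⟩ : Vi suφ)) 4096 (cU j) (fun g hg => ?_) hn
    ((card_le_of_le fun g hg i hi => ?_).trans hB)
  · obtain ⟨x, hx, e⟩ := vec4_surj (Equiv.refl (Fin 6)) card_K4 hom (suφ g *ᵥ Pi.single j 1)
    refine ⟨x, hx, ?_, Vi.ext e.symm⟩
    simp only [cU, Bool.and_eq_true, List.all_eq_true, List.mem_range, beq_iff_eq]
    refine ⟨fun i hi => e4_of_vec4 (Equiv.refl _) (i := ⟨i, by omega⟩) (by norm_num) ?_, ?_⟩
    · rw [e, el4_zero]; exact col_zero hg _ hi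
    · have h : hermForm 6 K4 2 (suφ g *ᵥ Pi.single j 1) (suφ g *ᵥ Pi.single j 1) = _ :=
        g.2 (Pi.single j 1) (Pi.single j 1)
      rw [← e] at h
      apply odd_of_cast_eq_one
      have h1 : hermForm 6 K4 2 (Pi.single j 1) (Pi.single j 1) = 1 := by
        simp [hermForm, Pi.single_apply]
      rw [h1] at h
      simp only [hermForm, vec4_eq, el4_cube (e4_lt _ _ _ _), Fin.sum_univ_six] at h
      push_cast at h ⊢
      exact h
  · rcases Nat.lt_succ_iff_lt_or_eq.1 hi with h | h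
    · exact hg.1 i h
    · rw [Fin.ext h]; exact congrArg Vi.v hg.2

theorem stU_five : Nat.card (stU 5) ≤ 1 := by
  have : stU 5 = ⊥ := by
    rw [eq_bot_iff]
    intro g hg
    have h1 : ∀ i k : Fin 6, k.1 < 5 → suφ g i k = if i = k then 1 else 0 := fun i k hk => by
      have := congrFun (hg k hk) i
      simpa [Pi.single_apply] using this
    have h2 : ∀ i : Fin 6, i.1 < 5 → suφ g i 5 = 0 := fun i hi => by
      simpa using col_zero (j := 5) hg i hi
    have h3 : suφ g = diagonal fun i => if i = 5 then suφ g 5 5 else 1 := by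
      funext i k
      by_cases hk : k.1 < 5
      · have : k ≠ 5 := fun e => by rw [e] at hk; simp at hk
        rw [h1 i k hk, diagonal_apply]
        split_ifs with a b <;> simp_all
      · obtain rfl : k = 5 := Fin.ext (by have := k.2; simp; omega)
        by_cases hi : i.1 < 5
        · have : i ≠ 5 := fun e => by rw [e] at hi; simp at hi
          rw [h2 i hi, diagonal_apply, if_neg this]
        · obtain rfl : i = 5 := Fin.ext (by have := i.2; simp; omega)
          simp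
    have h4 : (suφ g).det = 1 := g.1.2
    rw [h3, det_diagonal] at h4
    simp only [Finset.prod_ite_eq', Finset.mem_univ, if_true] at h4
    rw [h4] at h3
    refine mem_bot.2 (suφ_inj ?_)
    rw [h3, map_one]; simp
  rw [this]; exact card_bot_le

theorem card_SU6_le : Nat.card SU6 ≤ 27590492160 := by
  have h := stU_step 0 (n := 2016) (by decide +kernel) (stU_step 1 (n := 528) (by decide +kernel)
    (stU_step 2 (n := 120) (by decide +kernel) (stU_step 3 (n := 36) (by decide +kernel)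
    (stU_step 4 (n := 6) (by decide +kernel) stU_five))))
  have h0 : stU (0 : Fin 6) = ⊤ := eq_top_iff.2 fun g _ i hi => absurd hi (Nat.not_lt_zero _)
  rwa [h0, card_top] at h

/-! ### `Sp₄(4)` -/

abbrev Sp4 : Type := symplecticGroup (Fin 2) K4

noncomputable def spφ : Sp4 →* Matrix (Fin 2 ⊕ Fin 2) (Fin 2 ⊕ Fin 2) K4 := (symplecticGroup (Fin 2) K4).subtype

theorem spφ_inj : Function.Injective spφ := Subtype.val_injective

instance instFiniteSp4 : Finite Sp4 := Finite.of_injective _ spφ_inj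

def e22 : Fin 2 ⊕ Fin 2 ≃ Fin 4 := finSumFinEquiv

noncomputable abbrev mS : Mdl Sp4 (Matrix (Fin 2 ⊕ Fin 2) (Fin 2 ⊕ Fin 2) K4) :=
  md4 e22 hom spφ spφ_inj

def Jc : ℕ := 0x02010804

theorem ev_Jc : mS.ev Jc = J (Fin 2) K4 := by
  have h : ∀ i j : Fin 2 ⊕ Fin 2, e4 4 Jc (e22 j) (e22 i) =
      if ((e22 i).1 + 2) % 4 = (e22 j).1 then 1 else 0 := by decide +kernel
  have h1 : (-1 : K4) = 1 := CharTwo.neg_eq 1
  funext i j
  change ent4 K4 om 4 Jc (e22 j) (e22 i) = _
  rw [ent4_eq_el4, h]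
  rcases i with i | i <;> rcases j with j | j <;> fin_cases i <;> fin_cases j <;>
    simp [J, e22, el4_zero, el4_one, h1, finSumFinEquiv, Fin.natAdd, Fin.castAdd, Fin.castLE]

noncomputable def chkSp (a : ℕ) : ℕ := Nat.xor (mulF 4 (mulF 4 (tr4 4 a) Jc) a) Jc

theorem in_Sp4 {a : ℕ} (h : chkSp a = 0) : mS.In ⊤ a := by
  have e1 : mS.ev (mS.mul (mS.mul (tr4 4 a) Jc) a) = mS.ev Jc := congrArg mS.ev (xor_eq_zero' h)
  rw [mS.ev_mul, mS.ev_mul, ev_Jc] at e1
  refine ⟨⟨mS.ev a, SymplecticGroup.mem_iff'.2 ?_⟩, mem_top _, rfl⟩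
  have e2 : mS.ev (tr4 4 a) = (mS.ev a)ᵀ := ev4_tr4 e22 a
  rwa [e2] at e1

theorem sp_form (g : Sp4) (i j : Fin 2 ⊕ Fin 2) :
    spφ g (.inl 0) i * spφ g (.inr 0) j + spφ g (.inl 1) i * spφ g (.inr 1) j +
      spφ g (.inr 0) i * spφ g (.inl 0) j + spφ g (.inr 1) i * spφ g (.inl 1) j =
      J (Fin 2) K4 i j := by
  have h := congrFun (congrFun (SymplecticGroup.mem_iff'.1 g.2) i) j
  have h2 : (2 : K4) = 0 := CharTwo.two_eq_zero
  rw [← h]
  simp [mul_apply, J, Fin.sum_univ_two, one_apply, spφ]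
  linear_combination (g.1 (.inl 0) i * g.1 (.inr 0) j + g.1 (.inl 1) i * g.1 (.inr 1) j) * h2

/-- the stabiliser of a list of basis vectors -/
noncomputable def stS (l : List (Fin 2 ⊕ Fin 2)) : Subgroup Sp4 where
  carrier := {g | ∀ i ∈ l, spφ g *ᵥ Pi.single i 1 = Pi.single i 1}
  mul_mem' {a b} ha hb i hi := by rw [map_mul, ← mulVec_mulVec, hb i hi, ha i hi]
  one_mem' i _ := by rw [map_one, one_mulVec]
  inv_mem' {a} ha i hi := by
    conv_lhs => rw [← ha i hi, mulVec_mulVec, ← map_mul, inv_mul_cancel, map_one, one_mulVec]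

theorem stS_ent {l : List (Fin 2 ⊕ Fin 2)} {g : Sp4} (hg : g ∈ stS l) {k : Fin 2 ⊕ Fin 2}
    (hk : k ∈ l) (i : Fin 2 ⊕ Fin 2) : spφ g i k = if i = k then 1 else 0 := by
  simpa [Pi.single_apply] using congrFun (hg k hk) i

theorem stS_step (l : List (Fin 2 ⊕ Fin 2)) (j : Fin 2 ⊕ Fin 2) (c : ℕ → Bool) {n B : ℕ}
    (hc : ∀ g ∈ stS l, ∀ x < 256, (∀ i, spφ g i j = vec4 om e22 x i) → c x = true)
    (hn : (List.range 256).countP c = n) (hB : Nat.card (stS (j :: l)) ≤ B) :
    Nat.card (stS l) ≤ n * B := by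
  refine card_le_of_codes (x := (⟨Pi.single j 1⟩ : Vi spφ))
    (fun x => (⟨vec4 om e22 x⟩ : Vi spφ)) 256 c (fun g hg => ?_) hn
    ((card_le_of_le fun g hg i hi => ?_).trans hB)
  · obtain ⟨x, hx, e⟩ := vec4_surj e22 card_K4 hom (spφ g *ᵥ Pi.single j 1)
    exact ⟨x, hx, hc g hg x hx fun i => by rw [e]; simp, Vi.ext e.symm⟩
  · rcases List.mem_cons.1 hi with rfl | h
    · exact congrArg Vi.v hg.2
    · exact hg.1 i h

theorem sp_col_ne (g : Sp4) (j : Fin 2 ⊕ Fin 2) {x : ℕ} (h : ∀ i, spφ g i j = vec4 om e22 x i) :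
    x ≠ 0 := by
  rintro rfl
  have h1 := congrFun (congrFun (map_mul spφ g⁻¹ g) j) j
  rw [inv_mul_cancel, map_one, mul_apply] at h1
  simp [h, vec4, ent4, bit] at h1

theorem card_Sp4_le : Nat.card Sp4 ≤ 979200 := by
  have h1 : (-1 : K4) = 1 := CharTwo.neg_eq 1
  have hb : Nat.card (stS [.inr 1, .inl 1, .inr 0, .inl 0]) ≤ 1 := by
    have : stS [.inr 1, .inl 1, .inr 0, .inl 0] = ⊥ := by
      rw [eq_bot_iff]
      intro g hg
      refine mem_bot.2 (spφ_inj ?_)
      funext i k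
      rw [map_one, one_apply]
      refine stS_ent hg ?_ i
      rcases k with k | k <;> fin_cases k <;> simp
    rw [this]; exact card_bot_le
  have h := stS_step [] (.inl 0) (fun x => x != 0) (n := 255)
    (fun g _ x _ h => by simpa using sp_col_ne g _ h) (by decide +kernel)
    (stS_step [.inl 0] (.inr 0) (fun x => e4 4 x 0 2 == 1) (n := 64) (fun g hg x _ h => by
      have a := sp_form g (.inl 0) (.inr 0)
      simp [stS_ent hg, J, h1, h] at a
      exact beq_iff_eq.2 (e4_of_vec4 e22 (i := .inr 0) (by norm_num) (a.trans el4_one.symm)))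
      (by decide +kernel)
    (stS_step [.inr 0, .inl 0] (.inl 1) (fun x => x != 0 && e4 4 x 0 2 == 0 && e4 4 x 0 0 == 0)
      (n := 15) (fun g hg x _ h => by
      have a := sp_form g (.inl 0) (.inl 1)
      have b := sp_form g (.inr 0) (.inl 1)
      simp [stS_ent hg, J, h] at a b
      simp only [Bool.and_eq_true, bne_iff_ne, beq_iff_eq]
      exact ⟨⟨sp_col_ne g _ h, e4_of_vec4 e22 (i := .inr 0) (by norm_num) (a.trans el4_zero.symm)⟩,
        e4_of_vec4 e22 (i := .inl 0) (by norm_num) (b.trans el4_zero.symm)⟩) (by decide +kernel)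
    (stS_step [.inl 1, .inr 0, .inl 0] (.inr 1)
      (fun x => e4 4 x 0 3 == 1 && e4 4 x 0 2 == 0 && e4 4 x 0 0 == 0) (n := 4) (fun g hg x _ h => by
      have a := sp_form g (.inl 0) (.inr 1)
      have b := sp_form g (.inr 0) (.inr 1)
      have c := sp_form g (.inl 1) (.inr 1)
      simp [stS_ent hg, J, h1, h] at a b c
      simp only [Bool.and_eq_true, beq_iff_eq]
      exact ⟨⟨e4_of_vec4 e22 (i := .inr 1) (by norm_num) (c.trans el4_one.symm),
        e4_of_vec4 e22 (i := .inr 0) (by norm_num) (a.trans el4_zero.symm)⟩,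
        e4_of_vec4 e22 (i := .inl 0) (by norm_num) (b.trans el4_zero.symm)⟩) (by decide +kernel)
      hb)))
  have h0 : stS [] = ⊤ := eq_top_iff.2 fun g _ i hi => absurd hi List.not_mem_nil
  rwa [h0, card_top] at h

end Cfsg.Agent.H4
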