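import Cfsg.Agent.H4.DCW
import Cfsg.Agent.H4.K4

set_option autoImplicit false
set_option maxRecDepth 100000

namespace Cfsg.Agent.H4.He

open Subgroup Cfsg.Agent.H5 Cfsg.Agent.H5.Mdl 

abbrev GA : Type := GL (Fin 51) (ZMod 2)
noncomputable abbrev φA : GA →* Matrix (Fin 51) (Fin 51) (ZMod 2) := Units.coeHom _
noncomputable abbrev mA := md2 (ZMod 2) 51 φA Units.val_injective
theorem hb : (∀ a b, mS.mul a b < 2 ^ 32) ∧ mS.one < 2 ^ 32 :=
  ⟨fun a b => mulF_lt (d := 4) (by decide) a b, by decide +kernel⟩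
noncomputable abbrev mP := pair mA mS 32 hb
theorem hA : ∀ g a, mA.φ g = mA.ev a → φA g = ev2 (ZMod 2) 51 ((fun a => a) a) := fun _ _ h => h
theorem hS : ∀ g a, mS.φ g = mS.ev a → spφ g = ev4 om e22 ((fun a => a) a) := fun _ _ h => h

end Cfsg.Agent.H4.He
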