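/-
The group `PSL(3, 4)`: order, elements of order three.
-/
import Cfsg.Agent.H4.Cover

set_option autoImplicit false
set_option maxRecDepth 100000

open MulAction

namespace Cfsg.Agent.H4

variable {F : Type*} [Field F] [Fintype F]

theorem card_center_SL34 (hF : Fintype.card F = 4) :
    Nat.card (Subgroup.center (Matrix.SpecialLinearGroup (Fin 3) F)) = 3 := by
  obtain ⟨K⟩ := nonempty_f4FC hF
  exact FC.Cen.card_center K (FC.slHom_injective 3 F)
    (K.cen_sl hF 3 (l := [1, 2, 3]) (by decide +kernel)) (by decide +kernel)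

theorem card_L34 (hF : Fintype.card F = 4) :
    Nat.card (Matrix.ProjectiveSpecialLinearGroup (Fin 3) F) = 20160 := by
  have h1 := card_SL_of 3 F (N := 60480) hF (by decide)
  have h2 := card_SL_eq_PSL_mul 3 F
  rw [card_center_SL34 hF] at h2
  omega

/-- The operations of `PSL(3, 4)`. -/
def l34cg : CG Unit (ℕ × ℕ) := f4Ops.kpcg 4 2 3 [1, 2, 3]

/-- The validity test for `SL(3, 4)`. -/
def l34ok (c : ℕ × ℕ) : Bool := band (f4Ops.okGL 4 2 3 c) (f4Ops.det3 2 c.1)

/-- An element of order three. -/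
def l34a : ℕ × ℕ := (0x13124, 0xf125)

/-- A chain for a Sylow `3`-subgroup. -/
def l34S : List (CG.Level (ℕ × ℕ)) :=
  [(16, [(0x209a3, 0x309e2), (0xf9d5, 0x2177d)],
     [(0, 0), (1, 1), (0, 1), (1, 2), (1, 2), (1, 2), (1, 2), (1, 1)])]

/-- Conjugating elements. -/
def l34C : List (ℕ × ℕ) := [(0x10101, 0x10101), (0xdb38, 0xb399), (0x28615, 0x28631), (0x95e3, 0x34a6e), (0x34a6e, 0x95e3), (0x1e41c, 0x42b3), (0x42b3, 0x1e41c), (0xa31c, 0x5238)]

theorem exists_order_three_L34 (hF : Fintype.card F = 4) :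
    ∃ a : Matrix.ProjectiveSpecialLinearGroup (Fin 3) F, ∀ x, orderOf x = 3 → IsConj x a := by
  obtain ⟨K⟩ := nonempty_f4FC hF
  have hc := K.cen_sl hF 3 (l := [1, 2, 3]) (by decide +kernel)
  have hk : (K.pslcg 3 [1, 2, 3]).Keyed := K.kpcg_keyed hc
  have vt : (K.pslcg 3 [1, 2, 3]).VT l34ok := K.kpcg_vt K.sl3_vt
  obtain ⟨a, ha⟩ := vt l34a (by decide +kernel)
  refine ⟨a, fun x hx => ?_⟩
  · obtain ⟨hv, h1, -, h2⟩ := CG.ordCheck_spec hk K.kpcg_uniq vt (N := l34cg) rfl (L := l34S)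
      (n := 9) (by decide +kernel)
    obtain ⟨g, hg⟩ := exists_conj_mem Nat.prime_three _
      (by rw [index_eq_of_card _ (b := 2240) (by norm_num) h2 (card_L34 hF)]; norm_num)
      (x := x) (k := 1) (orderOf_dvd_iff_pow_eq_one.mp hx.dvd)
    obtain ⟨c, h3, h4⟩ := CG.forall_gen' hv h1 (N := l34cg) rfl
      (fun c => bor (l34cg.isOne c) (l34cg.conjTo l34C l34a c)) (by decide +kernel) _ hg
    rw [bor_eq, Bool.or_eq_true] at h4
    rcases h4 with h4 | h4
    · have h5 := (K.pslcg 3 [1, 2, 3]).eq_one h3 h4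
      rw [mul_inv_eq_one, mul_eq_left] at h5
      simp [h5] at hx
    · exact (isConj_iff.mpr ⟨g, rfl⟩).trans
        (CG.isConj_of_conjTo (vt.valid (by decide +kernel)) h3 ha h4)

end Cfsg.Agent.H4
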