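import Cfsg.Agent.H4.TC4

/-! Working with a closed coset table: tracing words, orbits of the subgroup, transfer of
simplicity through a common presentation. -/

set_option autoImplicit false

namespace Cfsg.Agent.H4.TC

open Subgroup Cfsg.Agent.H5 Cfsg.Agent.H5.Mdl Cfsg.Agent.H8.TC

variable {Γ : Type*} [Group Γ] {lt : ℕ → Γ}

noncomputable def rpl (a b m : ℕ) : List ℕ :=
  Nat.rec (motive := fun _ => List ℕ) [] (fun _ ih => a :: b :: ih) m

theorem prod_rpl (a b m : ℕ) : ((rpl a b m).map lt).prod = (lt a * lt b) ^ m := by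
  induction m with
  | zero => rw [pow_zero]; rfl
  | succ m ih =>
    rw [pow_succ', ← ih, mul_assoc]; rfl

noncomputable def chkCx (f : List ℕ → ℕ) (L x : ℕ) : ℕ :=
  force (Nat.land x 15) fun a => force (Nat.shiftRight x 4) fun b => below b (fun a =>
    force (fld L 4 15 (Nat.add a (Nat.mul 16 b))) fun k => f (rpl a b k)) a

theorem cox_of_chkCx {f : List ℕ → ℕ} {L : ℕ}
    (hL : ∀ a < 16, ∀ b < 16, fld L 4 15 (a + 16 * b) = fld L 4 15 (b + 16 * a))
    (hq : ∀ c, lt c * lt c = 1) (hf : ∀ w, f w = 0 → (w.map lt).prod = 1)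
    (h : ∀ x < 256, chkCx f L x = 0) :
    ∀ a < 16, ∀ b < 16, (lt a * lt b) ^ fld L 4 15 (a + 16 * b) = 1 := by
  have key : ∀ a < 16, ∀ b < 16, a < b → (lt a * lt b) ^ fld L 4 15 (a + 16 * b) = 1 := by
    intro a ha b hb hab
    have h1 := h (a + 16 * b) (by omega)
    have e1 : Nat.land (a + 16 * b) 15 = a :=
      (Nat.and_two_pow_sub_one_eq_mod _ 4).trans (by omega)
    have e2 : Nat.shiftRight (a + 16 * b) 4 = b := (Nat.shiftRight_eq_div_pow _ 4).trans (by omega)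
    simp only [chkCx, force_eq, e1, e2, below_eq] at h1
    rw [if_pos hab] at h1
    rw [← prod_rpl]; exact hf _ h1
  intro a ha b hb
  rcases lt_trichotomy a b with h1 | h1 | h1
  · exact key a ha b hb h1
  · rw [h1, hq, one_pow]
  · have := congrArg (·⁻¹) (key b hb a ha h1)
    simp only [← inv_pow, mul_inv_rev, inv_one] at this
    rwa [← eq_inv_of_mul_eq_one_left (hq a), ← eq_inv_of_mul_eq_one_left (hq b),
      ← hL a ha b hb] at this

theorem one_of_wd {G M : Type*} [Group G] [Monoid M] {m : Mdl G M} {gl : ℕ → ℕ} (hg : m.El ⊤ gl)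
    (w : List ℕ) (h : Nat.xor (wd m.mul m.one gl w) m.one = 0) :
    (w.map fun c => m.elt (gl c)).prod = 1 :=
  m.inj (by rw [rep_wd hg w, xor_eq_zero' h, m.ev_one, map_one])

theorem all_of_getW {l : List (List ℕ)} {P : List ℕ → Prop} (h : ∀ i < l.length, P (getW l i)) :
    ∀ w ∈ l, P w := by
  induction l with
  | nil => exact fun _ h => absurd h List.not_mem_nil
  | cons a l ih =>
    exact List.forall_mem_cons.2 ⟨h 0 (Nat.succ_pos _), ih fun i hi => h (i + 1) (Nat.succ_lt_succ hi)⟩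

/-! ### tracing -/

/-- the table `T` is valid for the letters in `S` -/
def Act (lt : ℕ → Γ) (K : Subgroup Γ) (φ : ℕ → Γ) (T : ℕ → ℕ → ℕ) (S : ℕ → Prop) (n : ℕ) : Prop :=
  ∀ c < n, ∀ a, S a → Holds lt K φ c a (T c a) ∧ T c a < n

noncomputable def trL (T : ℕ → ℕ → ℕ) (w : List ℕ) : ℕ → ℕ :=
  List.rec (motive := fun _ => ℕ → ℕ) (fun c => c) (fun a _ ih c => force (T c a) ih) w

variable {K : Subgroup Γ} {φ : ℕ → Γ} {T : ℕ → ℕ → ℕ} {S : ℕ → Prop} {n : ℕ}

theorem Act.tr (h : Act lt K φ T S n) (w : List ℕ) (hw : ∀ a ∈ w, S a) : ∀ c < n,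
    φ c * (w.map lt).prod * (φ (trL T w c))⁻¹ ∈ K ∧ trL T w c < n := by
  induction w with
  | nil => exact fun c hc => ⟨by change φ c * 1 * (φ c)⁻¹ ∈ K; simp, hc⟩
  | cons a w ih =>
    intro c hc
    obtain ⟨h1, h2⟩ := h c hc a (hw a List.mem_cons_self)
    obtain ⟨h3, h4⟩ := ih (fun b hb => hw b (List.mem_cons_of_mem _ hb)) _ h2
    refine ⟨?_, h4⟩
    change φ c * (lt a * (w.map lt).prod) * (φ (trL T w (T c a)))⁻¹ ∈ K
    convert K.mul_mem h1 h3 using 1; group

theorem Act.comp (h : Act lt K φ T S n) {hw : ℕ → List ℕ} (h1 : ∀ a, ∀ b ∈ hw a, S b) :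
    Act (fun a => ((hw a).map lt).prod) K φ (fun c a => trL T (hw a) c) (fun _ => True) n :=
  fun c hc a _ => h.tr (hw a) (h1 a) c hc

theorem Tab.act {ng : ℕ} (h : Tab lt K φ T ng n) : Act lt K φ T (fun a => 1 ≤ a ∧ a ≤ ng) n :=
  fun c hc a ha => h.2 c hc a ha.2 (by omega)

/-- the word `w` fixes the points of `B` -/
noncomputable def chkB (T : ℕ → ℕ → ℕ) (B w : List ℕ) : ℕ :=
  sumL' B fun p => Nat.xor (trL T w p) p

theorem Act.fix (h : Act lt K φ T S n) {B w : List ℕ} (hw : ∀ a ∈ w, S a) (hB : ∀ p ∈ B, p < n)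
    (h1 : chkB T B w = 0) : ∀ p ∈ B, φ p * (w.map lt).prod * (φ p)⁻¹ ∈ K := fun p hp => by
  have h2 := (h.tr w hw p (hB p hp)).1
  rwa [show trL T w p = p from xor_eq_zero' (sumL'_zero h1 p hp)] at h2

/-- some letter `1 … m` leads to a smaller nonzero row -/
noncomputable def dn (w mk r c m : ℕ) : ℕ :=
  Nat.rec (motive := fun _ => ℕ) 1 (fun g ih => force (tg (sl w mk r (Nat.succ g))) fun t =>
    ifz (Nat.add (lz t c) (lz 0 t)) 0 ih) m

theorem dn_zero {w mk r c m : ℕ} (h : dn w mk r c m = 0) :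
    ∃ g, 1 ≤ g ∧ g ≤ m ∧ tg (sl w mk r g) < c ∧ 0 < tg (sl w mk r g) := by
  induction m with
  | zero => exact absurd h Nat.one_ne_zero
  | succ m ih =>
    change ifz _ 0 (dn w mk r c m) = 0 at h
    rw [ifz_eq] at h
    split_ifs at h with h1
    · exact ⟨m + 1, by omega, le_rfl, lt_of_lz (add_eq_zero' h1).1, lt_of_lz (add_eq_zero' h1).2⟩
    · obtain ⟨g, h2, h3, h4⟩ := ih h
      exact ⟨g, h2, by omega, h4⟩

noncomputable def chkDn (R : ℕ → ℕ) (w mk m b c : ℕ) : ℕ :=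
  ifz (Nat.shiftRight c 1) 0 (ifz (Nat.xor c b) 0 (force (R c) fun r => dn w mk r c m))

/-- the orbits of `K` on the rows: the roots are `0`, `1` and `b` -/
theorem orb_of_chk {R : ℕ → ℕ} {w mk m b ng : ℕ}
    (h : Tab lt K φ (fun c g => tg (sl w mk (R c) g)) ng n) (hm : m ≤ ng)
    (hK : ∀ g ≤ m, lt g ∈ K) (hc : ∀ c < n, chkDn R w mk m b c = 0) :
    ∀ c < n, c ≠ 0 → DCos K (φ 1) (φ c) ∨ DCos K (φ b) (φ c) := by
  have self : ∀ x : Γ, DCos K x x := fun x => ⟨1, K.one_mem, 1, K.one_mem, by simp⟩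
  intro c
  induction c using Nat.strong_induction_on with
  | _ c ih =>
    intro hn h1
    have h2 := hc c hn
    simp only [chkDn, force_eq, ifz_eq] at h2
    split_ifs at h2 with a1 a2
    · have : c / 2 = 0 := (Nat.shiftRight_eq_div_pow c 1).symm.trans a1
      rw [show c = 1 by omega]; exact Or.inl (self _)
    · rw [xor_eq_zero' a2]; exact Or.inr (self _)
    · obtain ⟨g, g1, g2, g3, g4⟩ := dn_zero h2
      obtain ⟨h3, h4⟩ := h.2 c hn g (by omega) (by omega)
      have step : ∀ x : Γ, DCos K x (φ (tg (sl w mk (R c) g))) → DCos K x (φ c) := by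
        rintro x ⟨a, ha, b, hb, e⟩
        refine ⟨_, K.mul_mem h3 ha, _, K.mul_mem hb (K.inv_mem (hK g g2)), ?_⟩
        beta_reduce
        rw [e]; group
      exact (ih _ g3 h4 g4.ne').imp (step _) (step _)

/-! ### transfer through a common presentation -/

theorem pair_iso {A B : Type*} [Group A] [Group B] {P : Subgroup (A × B)} {N : ℕ} (hP : Bd P N)
    {R : Subgroup B} (hR : R ≤ P.map (MonoidHom.snd A B)) (hc : Nat.card R = N)
    (hs : IsSimpleGroup R) {p : A × B} (hp : p ∈ P) (h1 : p.1 ≠ 1) :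
    ∃ e : P.map (MonoidHom.fst A B) ≃* R, ∀ q (hq : q ∈ P), (e ⟨q.1, q, hq, rfl⟩ : B) = q.2 := by
  have := hP.1
  have f2 : Finite (P.map (MonoidHom.snd A B)) :=
    Finite.of_surjective _ ((MonoidHom.snd A B).subgroupMap_surjective P)
  have c2 : Nat.card (P.map (MonoidHom.snd A B)) ≤ Nat.card P :=
    Nat.card_le_card_of_surjective _ ((MonoidHom.snd A B).subgroupMap_surjective P)
  have c3 := card_le_of_le hR
  have e2 : R = P.map (MonoidHom.snd A B) := eq_of_le_of_card_ge hR (by have := hP.2; omega)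
  subst e2
  have b2 : Function.Bijective ((MonoidHom.snd A B).subgroupMap P) :=
    (Nat.bijective_iff_surjective_and_card _).2
      ⟨(MonoidHom.snd A B).subgroupMap_surjective P, by have := hP.2; omega⟩
  let e2 := MulEquiv.ofBijective _ b2
  have hs' : IsSimpleGroup P := e2.isSimpleGroup
  have b1 : Function.Bijective ((MonoidHom.fst A B).subgroupMap P) := by
    refine ⟨(MonoidHom.ker_eq_bot_iff _).1 ((hs'.eq_bot_or_eq_top_of_normal _
      inferInstance).resolve_right fun h => h1 ?_), (MonoidHom.fst A B).subgroupMap_surjective P⟩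
    exact congrArg Subtype.val (MonoidHom.mem_ker.1 (h.ge (mem_top (⟨p, hp⟩ : P))))
  let e1 := MulEquiv.ofBijective _ b1
  refine ⟨e1.symm.trans e2, fun q hq => ?_⟩
  rw [MulEquiv.trans_apply, show e1.symm ⟨q.1, q, hq, rfl⟩ = ⟨q, hq⟩ from e1.symm_apply_eq.2 rfl]
  rfl

theorem map_Gk {G : Type*} [Group G] (f : Γ →* G) (k : ℕ) :
    (Gk lt k).map f = Gk (fun c => f (lt c)) k := by
  rw [Gk, MonoidHom.map_closure, Set.image_image]; rfl

theorem Gk_le {k : ℕ} {H : Subgroup Γ} (h : ∀ c ≤ k, lt c ∈ H) : Gk lt k ≤ H :=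
  (closure_le _).2 (by rintro _ ⟨c, hc, rfl⟩; exact h c hc)

end Cfsg.Agent.H4.TC
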