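import Cfsg.Agent.H4.Y24F

set_option autoImplicit false
set_option maxRecDepth 100000
set_option Elab.async false

namespace Cfsg.Agent.H4.Y24

open Cfsg.Agent.H5 Cfsg.Agent.H8.TC Cfsg.Agent.H4.TC

theorem t_0 : rngB tf (nat_lit 307277) (nat_lit 0) (nat_lit 16) = 0 := by decide +kernel
theorem t_1 : rngB tf (nat_lit 307277) (nat_lit 16) (nat_lit 16) = 0 := by decide +kernel
theorem t_2 : rngB tf (nat_lit 307277) (nat_lit 32) (nat_lit 16) = 0 := by decide +kernel
theorem t_3 : rngB tf (nat_lit 307277) (nat_lit 48) (nat_lit 16) = 0 := by decide +kernel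
theorem t_4 : rngB tf (nat_lit 307277) (nat_lit 64) (nat_lit 16) = 0 := by decide +kernel
theorem t_5 : rngB tf (nat_lit 307277) (nat_lit 80) (nat_lit 16) = 0 := by decide +kernel
theorem t_6 : rngB tf (nat_lit 307277) (nat_lit 96) (nat_lit 16) = 0 := by decide +kernel
theorem t_7 : rngB tf (nat_lit 307277) (nat_lit 112) (nat_lit 16) = 0 := by decide +kernel
theorem t_8 : rngB tf (nat_lit 307277) (nat_lit 128) (nat_lit 16) = 0 := by decide +kernel
theorem t_9 : rngB tf (nat_lit 307277) (nat_lit 144) (nat_lit 16) = 0 := by decide +kernel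
theorem t_10 : rngB tf (nat_lit 307277) (nat_lit 160) (nat_lit 16) = 0 := by decide +kernel
theorem t_11 : rngB tf (nat_lit 307277) (nat_lit 176) (nat_lit 16) = 0 := by decide +kernel
theorem t_12 : rngB tf (nat_lit 307277) (nat_lit 192) (nat_lit 16) = 0 := by decide +kernel
theorem t_13 : rngB tf (nat_lit 307277) (nat_lit 208) (nat_lit 16) = 0 := by decide +kernel
theorem t_14 : rngB tf (nat_lit 307277) (nat_lit 224) (nat_lit 16) = 0 := by decide +kernel
theorem t_15 : rngB tf (nat_lit 307277) (nat_lit 240) (nat_lit 16) = 0 := by decide +kernel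
theorem t_16 : rngB tf (nat_lit 307277) (nat_lit 256) (nat_lit 16) = 0 := by decide +kernel
theorem t_17 : rngB tf (nat_lit 307277) (nat_lit 272) (nat_lit 16) = 0 := by decide +kernel
theorem t_18 : rngB tf (nat_lit 307277) (nat_lit 288) (nat_lit 16) = 0 := by decide +kernel
theorem t_19 : rngB tf (nat_lit 307277) (nat_lit 304) (nat_lit 16) = 0 := by decide +kernel
theorem t_20 : rngB tf (nat_lit 307277) (nat_lit 320) (nat_lit 16) = 0 := by decide +kernel
theorem t_21 : rngB tf (nat_lit 307277) (nat_lit 336) (nat_lit 16) = 0 := by decide +kernel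
theorem t_22 : rngB tf (nat_lit 307277) (nat_lit 352) (nat_lit 16) = 0 := by decide +kernel
theorem t_23 : rngB tf (nat_lit 307277) (nat_lit 368) (nat_lit 16) = 0 := by decide +kernel
theorem t_24 : rngB tf (nat_lit 307277) (nat_lit 384) (nat_lit 16) = 0 := by decide +kernel
theorem t_25 : rngB tf (nat_lit 307277) (nat_lit 400) (nat_lit 16) = 0 := by decide +kernel
theorem t_26 : rngB tf (nat_lit 307277) (nat_lit 416) (nat_lit 16) = 0 := by decide +kernel
theorem t_27 : rngB tf (nat_lit 307277) (nat_lit 432) (nat_lit 16) = 0 := by decide +kernel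
theorem t_28 : rngB tf (nat_lit 307277) (nat_lit 448) (nat_lit 16) = 0 := by decide +kernel
theorem t_29 : rngB tf (nat_lit 307277) (nat_lit 464) (nat_lit 16) = 0 := by decide +kernel
theorem t_30 : rngB tf (nat_lit 307277) (nat_lit 480) (nat_lit 16) = 0 := by decide +kernel

end Cfsg.Agent.H4.Y24
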