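import Cfsg.Agent.H4.Y24F

set_option autoImplicit false
set_option maxRecDepth 100000
set_option Elab.async false

namespace Cfsg.Agent.H4.Y24

open Cfsg.Agent.H5 Cfsg.Agent.H8.TC Cfsg.Agent.H4.TC

theorem t_31 : rngB tf (nat_lit 307277) (nat_lit 496) (nat_lit 16) = 0 := by decide +kernel
theorem t_32 : rngB tf (nat_lit 307277) (nat_lit 512) (nat_lit 16) = 0 := by decide +kernel
theorem t_33 : rngB tf (nat_lit 307277) (nat_lit 528) (nat_lit 16) = 0 := by decide +kernel
theorem t_34 : rngB tf (nat_lit 307277) (nat_lit 544) (nat_lit 16) = 0 := by decide +kernel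
theorem t_35 : rngB tf (nat_lit 307277) (nat_lit 560) (nat_lit 16) = 0 := by decide +kernel
theorem t_36 : rngB tf (nat_lit 307277) (nat_lit 576) (nat_lit 16) = 0 := by decide +kernel
theorem t_37 : rngB tf (nat_lit 307277) (nat_lit 592) (nat_lit 16) = 0 := by decide +kernel
theorem t_38 : rngB tf (nat_lit 307277) (nat_lit 608) (nat_lit 16) = 0 := by decide +kernel
theorem t_39 : rngB tf (nat_lit 307277) (nat_lit 624) (nat_lit 16) = 0 := by decide +kernel
theorem t_40 : rngB tf (nat_lit 307277) (nat_lit 640) (nat_lit 16) = 0 := by decide +kernel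
theorem t_41 : rngB tf (nat_lit 307277) (nat_lit 656) (nat_lit 16) = 0 := by decide +kernel
theorem t_42 : rngB tf (nat_lit 307277) (nat_lit 672) (nat_lit 16) = 0 := by decide +kernel
theorem t_43 : rngB tf (nat_lit 307277) (nat_lit 688) (nat_lit 16) = 0 := by decide +kernel
theorem t_44 : rngB tf (nat_lit 307277) (nat_lit 704) (nat_lit 16) = 0 := by decide +kernel
theorem t_45 : rngB tf (nat_lit 307277) (nat_lit 720) (nat_lit 16) = 0 := by decide +kernel
theorem t_46 : rngB tf (nat_lit 307277) (nat_lit 736) (nat_lit 16) = 0 := by decide +kernel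
theorem t_47 : rngB tf (nat_lit 307277) (nat_lit 752) (nat_lit 16) = 0 := by decide +kernel
theorem t_48 : rngB tf (nat_lit 307277) (nat_lit 768) (nat_lit 16) = 0 := by decide +kernel
theorem t_49 : rngB tf (nat_lit 307277) (nat_lit 784) (nat_lit 16) = 0 := by decide +kernel
theorem t_50 : rngB tf (nat_lit 307277) (nat_lit 800) (nat_lit 16) = 0 := by decide +kernel
theorem t_51 : rngB tf (nat_lit 307277) (nat_lit 816) (nat_lit 16) = 0 := by decide +kernel
theorem t_52 : rngB tf (nat_lit 307277) (nat_lit 832) (nat_lit 16) = 0 := by decide +kernel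
theorem t_53 : rngB tf (nat_lit 307277) (nat_lit 848) (nat_lit 16) = 0 := by decide +kernel
theorem t_54 : rngB tf (nat_lit 307277) (nat_lit 864) (nat_lit 16) = 0 := by decide +kernel
theorem t_55 : rngB tf (nat_lit 307277) (nat_lit 880) (nat_lit 16) = 0 := by decide +kernel
theorem t_56 : rngB tf (nat_lit 307277) (nat_lit 896) (nat_lit 16) = 0 := by decide +kernel
theorem t_57 : rngB tf (nat_lit 307277) (nat_lit 912) (nat_lit 16) = 0 := by decide +kernel
theorem t_58 : rngB tf (nat_lit 307277) (nat_lit 928) (nat_lit 16) = 0 := by decide +kernel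
theorem t_59 : rngB tf (nat_lit 307277) (nat_lit 944) (nat_lit 16) = 0 := by decide +kernel
theorem t_60 : rngB tf (nat_lit 307277) (nat_lit 960) (nat_lit 16) = 0 := by decide +kernel
theorem t_61 : rngB tf (nat_lit 307277) (nat_lit 976) (nat_lit 16) = 0 := by decide +kernel

end Cfsg.Agent.H4.Y24
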