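import Cfsg.Agent.H4.Y24F

set_option autoImplicit false
set_option maxRecDepth 100000
set_option Elab.async false

namespace Cfsg.Agent.H4.Y24

open Cfsg.Agent.H5 Cfsg.Agent.H8.TC Cfsg.Agent.H4.TC

theorem t_62 : rngB tf (nat_lit 307277) (nat_lit 992) (nat_lit 16) = 0 := by decide +kernel
theorem t_63 : rngB tf (nat_lit 307277) (nat_lit 1008) (nat_lit 16) = 0 := by decide +kernel
theorem t_64 : rngB tf (nat_lit 307277) (nat_lit 1024) (nat_lit 16) = 0 := by decide +kernel
theorem t_65 : rngB tf (nat_lit 307277) (nat_lit 1040) (nat_lit 16) = 0 := by decide +kernel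
theorem t_66 : rngB tf (nat_lit 307277) (nat_lit 1056) (nat_lit 16) = 0 := by decide +kernel
theorem t_67 : rngB tf (nat_lit 307277) (nat_lit 1072) (nat_lit 16) = 0 := by decide +kernel
theorem t_68 : rngB tf (nat_lit 307277) (nat_lit 1088) (nat_lit 16) = 0 := by decide +kernel
theorem t_69 : rngB tf (nat_lit 307277) (nat_lit 1104) (nat_lit 16) = 0 := by decide +kernel
theorem t_70 : rngB tf (nat_lit 307277) (nat_lit 1120) (nat_lit 16) = 0 := by decide +kernel
theorem t_71 : rngB tf (nat_lit 307277) (nat_lit 1136) (nat_lit 16) = 0 := by decide +kernel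
theorem t_72 : rngB tf (nat_lit 307277) (nat_lit 1152) (nat_lit 16) = 0 := by decide +kernel
theorem t_73 : rngB tf (nat_lit 307277) (nat_lit 1168) (nat_lit 16) = 0 := by decide +kernel
theorem t_74 : rngB tf (nat_lit 307277) (nat_lit 1184) (nat_lit 16) = 0 := by decide +kernel
theorem t_75 : rngB tf (nat_lit 307277) (nat_lit 1200) (nat_lit 16) = 0 := by decide +kernel
theorem t_76 : rngB tf (nat_lit 307277) (nat_lit 1216) (nat_lit 16) = 0 := by decide +kernel
theorem t_77 : rngB tf (nat_lit 307277) (nat_lit 1232) (nat_lit 16) = 0 := by decide +kernel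
theorem t_78 : rngB tf (nat_lit 307277) (nat_lit 1248) (nat_lit 16) = 0 := by decide +kernel
theorem t_79 : rngB tf (nat_lit 307277) (nat_lit 1264) (nat_lit 16) = 0 := by decide +kernel
theorem t_80 : rngB tf (nat_lit 307277) (nat_lit 1280) (nat_lit 16) = 0 := by decide +kernel
theorem t_81 : rngB tf (nat_lit 307277) (nat_lit 1296) (nat_lit 16) = 0 := by decide +kernel
theorem t_82 : rngB tf (nat_lit 307277) (nat_lit 1312) (nat_lit 16) = 0 := by decide +kernel
theorem t_83 : rngB tf (nat_lit 307277) (nat_lit 1328) (nat_lit 16) = 0 := by decide +kernel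
theorem t_84 : rngB tf (nat_lit 307277) (nat_lit 1344) (nat_lit 16) = 0 := by decide +kernel
theorem t_85 : rngB tf (nat_lit 307277) (nat_lit 1360) (nat_lit 16) = 0 := by decide +kernel
theorem t_86 : rngB tf (nat_lit 307277) (nat_lit 1376) (nat_lit 16) = 0 := by decide +kernel
theorem t_87 : rngB tf (nat_lit 307277) (nat_lit 1392) (nat_lit 16) = 0 := by decide +kernel
theorem t_88 : rngB tf (nat_lit 307277) (nat_lit 1408) (nat_lit 16) = 0 := by decide +kernel
theorem t_89 : rngB tf (nat_lit 307277) (nat_lit 1424) (nat_lit 16) = 0 := by decide +kernel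
theorem t_90 : rngB tf (nat_lit 307277) (nat_lit 1440) (nat_lit 16) = 0 := by decide +kernel
theorem t_91 : rngB tf (nat_lit 307277) (nat_lit 1456) (nat_lit 16) = 0 := by decide +kernel
theorem t_92 : rngB tf (nat_lit 307277) (nat_lit 1472) (nat_lit 16) = 0 := by decide +kernel

end Cfsg.Agent.H4.Y24
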