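import Cfsg.Agent.H4.Y24F

set_option autoImplicit false
set_option maxRecDepth 100000
set_option Elab.async false

namespace Cfsg.Agent.H4.Y24

open Cfsg.Agent.H5 Cfsg.Agent.H8.TC Cfsg.Agent.H4.TC

theorem t_93 : rngB tf (nat_lit 307277) (nat_lit 1488) (nat_lit 16) = 0 := by decide +kernel
theorem t_94 : rngB tf (nat_lit 307277) (nat_lit 1504) (nat_lit 16) = 0 := by decide +kernel
theorem t_95 : rngB tf (nat_lit 307277) (nat_lit 1520) (nat_lit 16) = 0 := by decide +kernel
theorem t_96 : rngB tf (nat_lit 307277) (nat_lit 1536) (nat_lit 16) = 0 := by decide +kernel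
theorem t_97 : rngB tf (nat_lit 307277) (nat_lit 1552) (nat_lit 16) = 0 := by decide +kernel
theorem t_98 : rngB tf (nat_lit 307277) (nat_lit 1568) (nat_lit 16) = 0 := by decide +kernel
theorem t_99 : rngB tf (nat_lit 307277) (nat_lit 1584) (nat_lit 16) = 0 := by decide +kernel
theorem t_100 : rngB tf (nat_lit 307277) (nat_lit 1600) (nat_lit 16) = 0 := by decide +kernel
theorem t_101 : rngB tf (nat_lit 307277) (nat_lit 1616) (nat_lit 16) = 0 := by decide +kernel
theorem t_102 : rngB tf (nat_lit 307277) (nat_lit 1632) (nat_lit 16) = 0 := by decide +kernel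
theorem t_103 : rngB tf (nat_lit 307277) (nat_lit 1648) (nat_lit 16) = 0 := by decide +kernel
theorem t_104 : rngB tf (nat_lit 307277) (nat_lit 1664) (nat_lit 16) = 0 := by decide +kernel
theorem t_105 : rngB tf (nat_lit 307277) (nat_lit 1680) (nat_lit 16) = 0 := by decide +kernel
theorem t_106 : rngB tf (nat_lit 307277) (nat_lit 1696) (nat_lit 16) = 0 := by decide +kernel
theorem t_107 : rngB tf (nat_lit 307277) (nat_lit 1712) (nat_lit 16) = 0 := by decide +kernel
theorem t_108 : rngB tf (nat_lit 307277) (nat_lit 1728) (nat_lit 16) = 0 := by decide +kernel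
theorem t_109 : rngB tf (nat_lit 307277) (nat_lit 1744) (nat_lit 16) = 0 := by decide +kernel
theorem t_110 : rngB tf (nat_lit 307277) (nat_lit 1760) (nat_lit 16) = 0 := by decide +kernel
theorem t_111 : rngB tf (nat_lit 307277) (nat_lit 1776) (nat_lit 16) = 0 := by decide +kernel
theorem t_112 : rngB tf (nat_lit 307277) (nat_lit 1792) (nat_lit 16) = 0 := by decide +kernel
theorem t_113 : rngB tf (nat_lit 307277) (nat_lit 1808) (nat_lit 16) = 0 := by decide +kernel
theorem t_114 : rngB tf (nat_lit 307277) (nat_lit 1824) (nat_lit 16) = 0 := by decide +kernel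
theorem t_115 : rngB tf (nat_lit 307277) (nat_lit 1840) (nat_lit 16) = 0 := by decide +kernel
theorem t_116 : rngB tf (nat_lit 307277) (nat_lit 1856) (nat_lit 16) = 0 := by decide +kernel
theorem t_117 : rngB tf (nat_lit 307277) (nat_lit 1872) (nat_lit 16) = 0 := by decide +kernel
theorem t_118 : rngB tf (nat_lit 307277) (nat_lit 1888) (nat_lit 16) = 0 := by decide +kernel
theorem t_119 : rngB tf (nat_lit 307277) (nat_lit 1904) (nat_lit 16) = 0 := by decide +kernel
theorem t_120 : rngB tf (nat_lit 307277) (nat_lit 1920) (nat_lit 16) = 0 := by decide +kernel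
theorem t_121 : rngB tf (nat_lit 307277) (nat_lit 1936) (nat_lit 16) = 0 := by decide +kernel
theorem t_122 : rngB tf (nat_lit 307277) (nat_lit 1952) (nat_lit 16) = 0 := by decide +kernel
theorem t_123 : rngB tf (nat_lit 307277) (nat_lit 1968) (nat_lit 16) = 0 := by decide +kernel

end Cfsg.Agent.H4.Y24
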