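import Cfsg.Agent.H4.Y24F

set_option autoImplicit false
set_option maxRecDepth 100000
set_option Elab.async false

namespace Cfsg.Agent.H4.Y24

open Cfsg.Agent.H5 Cfsg.Agent.H8.TC Cfsg.Agent.H4.TC

theorem t_124 : rngB tf (nat_lit 307277) (nat_lit 1984) (nat_lit 16) = 0 := by decide +kernel
theorem t_125 : rngB tf (nat_lit 307277) (nat_lit 2000) (nat_lit 16) = 0 := by decide +kernel
theorem t_126 : rngB tf (nat_lit 307277) (nat_lit 2016) (nat_lit 16) = 0 := by decide +kernel
theorem t_127 : rngB tf (nat_lit 307277) (nat_lit 2032) (nat_lit 16) = 0 := by decide +kernel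
theorem t_128 : rngB tf (nat_lit 307277) (nat_lit 2048) (nat_lit 16) = 0 := by decide +kernel
theorem t_129 : rngB tf (nat_lit 307277) (nat_lit 2064) (nat_lit 16) = 0 := by decide +kernel
theorem t_130 : rngB tf (nat_lit 307277) (nat_lit 2080) (nat_lit 16) = 0 := by decide +kernel
theorem t_131 : rngB tf (nat_lit 307277) (nat_lit 2096) (nat_lit 16) = 0 := by decide +kernel
theorem t_132 : rngB tf (nat_lit 307277) (nat_lit 2112) (nat_lit 16) = 0 := by decide +kernel
theorem t_133 : rngB tf (nat_lit 307277) (nat_lit 2128) (nat_lit 16) = 0 := by decide +kernel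
theorem t_134 : rngB tf (nat_lit 307277) (nat_lit 2144) (nat_lit 16) = 0 := by decide +kernel
theorem t_135 : rngB tf (nat_lit 307277) (nat_lit 2160) (nat_lit 16) = 0 := by decide +kernel
theorem t_136 : rngB tf (nat_lit 307277) (nat_lit 2176) (nat_lit 16) = 0 := by decide +kernel
theorem t_137 : rngB tf (nat_lit 307277) (nat_lit 2192) (nat_lit 16) = 0 := by decide +kernel
theorem t_138 : rngB tf (nat_lit 307277) (nat_lit 2208) (nat_lit 16) = 0 := by decide +kernel
theorem t_139 : rngB tf (nat_lit 307277) (nat_lit 2224) (nat_lit 16) = 0 := by decide +kernel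
theorem t_140 : rngB tf (nat_lit 307277) (nat_lit 2240) (nat_lit 16) = 0 := by decide +kernel
theorem t_141 : rngB tf (nat_lit 307277) (nat_lit 2256) (nat_lit 16) = 0 := by decide +kernel
theorem t_142 : rngB tf (nat_lit 307277) (nat_lit 2272) (nat_lit 16) = 0 := by decide +kernel
theorem t_143 : rngB tf (nat_lit 307277) (nat_lit 2288) (nat_lit 16) = 0 := by decide +kernel
theorem t_144 : rngB tf (nat_lit 307277) (nat_lit 2304) (nat_lit 16) = 0 := by decide +kernel
theorem t_145 : rngB tf (nat_lit 307277) (nat_lit 2320) (nat_lit 16) = 0 := by decide +kernel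
theorem t_146 : rngB tf (nat_lit 307277) (nat_lit 2336) (nat_lit 16) = 0 := by decide +kernel
theorem t_147 : rngB tf (nat_lit 307277) (nat_lit 2352) (nat_lit 16) = 0 := by decide +kernel
theorem t_148 : rngB tf (nat_lit 307277) (nat_lit 2368) (nat_lit 16) = 0 := by decide +kernel
theorem t_149 : rngB tf (nat_lit 307277) (nat_lit 2384) (nat_lit 16) = 0 := by decide +kernel
theorem t_150 : rngB tf (nat_lit 307277) (nat_lit 2400) (nat_lit 16) = 0 := by decide +kernel
theorem t_151 : rngB tf (nat_lit 307277) (nat_lit 2416) (nat_lit 16) = 0 := by decide +kernel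
theorem t_152 : rngB tf (nat_lit 307277) (nat_lit 2432) (nat_lit 16) = 0 := by decide +kernel
theorem t_153 : rngB tf (nat_lit 307277) (nat_lit 2448) (nat_lit 16) = 0 := by decide +kernel
theorem t_154 : rngB tf (nat_lit 307277) (nat_lit 2464) (nat_lit 16) = 0 := by decide +kernel

end Cfsg.Agent.H4.Y24
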