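import Cfsg.Agent.H4.Y24F

set_option autoImplicit false
set_option maxRecDepth 100000
set_option Elab.async false

namespace Cfsg.Agent.H4.Y24

open Cfsg.Agent.H5 Cfsg.Agent.H8.TC Cfsg.Agent.H4.TC

theorem t_155 : rngB tf (nat_lit 307277) (nat_lit 2480) (nat_lit 16) = 0 := by decide +kernel
theorem t_156 : rngB tf (nat_lit 307277) (nat_lit 2496) (nat_lit 16) = 0 := by decide +kernel
theorem t_157 : rngB tf (nat_lit 307277) (nat_lit 2512) (nat_lit 16) = 0 := by decide +kernel
theorem t_158 : rngB tf (nat_lit 307277) (nat_lit 2528) (nat_lit 16) = 0 := by decide +kernel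
theorem t_159 : rngB tf (nat_lit 307277) (nat_lit 2544) (nat_lit 16) = 0 := by decide +kernel
theorem t_160 : rngB tf (nat_lit 307277) (nat_lit 2560) (nat_lit 16) = 0 := by decide +kernel
theorem t_161 : rngB tf (nat_lit 307277) (nat_lit 2576) (nat_lit 16) = 0 := by decide +kernel
theorem t_162 : rngB tf (nat_lit 307277) (nat_lit 2592) (nat_lit 16) = 0 := by decide +kernel
theorem t_163 : rngB tf (nat_lit 307277) (nat_lit 2608) (nat_lit 16) = 0 := by decide +kernel
theorem t_164 : rngB tf (nat_lit 307277) (nat_lit 2624) (nat_lit 16) = 0 := by decide +kernel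
theorem t_165 : rngB tf (nat_lit 307277) (nat_lit 2640) (nat_lit 16) = 0 := by decide +kernel
theorem t_166 : rngB tf (nat_lit 307277) (nat_lit 2656) (nat_lit 16) = 0 := by decide +kernel
theorem t_167 : rngB tf (nat_lit 307277) (nat_lit 2672) (nat_lit 16) = 0 := by decide +kernel
theorem t_168 : rngB tf (nat_lit 307277) (nat_lit 2688) (nat_lit 16) = 0 := by decide +kernel
theorem t_169 : rngB tf (nat_lit 307277) (nat_lit 2704) (nat_lit 16) = 0 := by decide +kernel
theorem t_170 : rngB tf (nat_lit 307277) (nat_lit 2720) (nat_lit 16) = 0 := by decide +kernel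
theorem t_171 : rngB tf (nat_lit 307277) (nat_lit 2736) (nat_lit 16) = 0 := by decide +kernel
theorem t_172 : rngB tf (nat_lit 307277) (nat_lit 2752) (nat_lit 16) = 0 := by decide +kernel
theorem t_173 : rngB tf (nat_lit 307277) (nat_lit 2768) (nat_lit 16) = 0 := by decide +kernel
theorem t_174 : rngB tf (nat_lit 307277) (nat_lit 2784) (nat_lit 16) = 0 := by decide +kernel
theorem t_175 : rngB tf (nat_lit 307277) (nat_lit 2800) (nat_lit 16) = 0 := by decide +kernel
theorem t_176 : rngB tf (nat_lit 307277) (nat_lit 2816) (nat_lit 16) = 0 := by decide +kernel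
theorem t_177 : rngB tf (nat_lit 307277) (nat_lit 2832) (nat_lit 16) = 0 := by decide +kernel
theorem t_178 : rngB tf (nat_lit 307277) (nat_lit 2848) (nat_lit 16) = 0 := by decide +kernel
theorem t_179 : rngB tf (nat_lit 307277) (nat_lit 2864) (nat_lit 16) = 0 := by decide +kernel
theorem t_180 : rngB tf (nat_lit 307277) (nat_lit 2880) (nat_lit 16) = 0 := by decide +kernel
theorem t_181 : rngB tf (nat_lit 307277) (nat_lit 2896) (nat_lit 16) = 0 := by decide +kernel
theorem t_182 : rngB tf (nat_lit 307277) (nat_lit 2912) (nat_lit 16) = 0 := by decide +kernel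
theorem t_183 : rngB tf (nat_lit 307277) (nat_lit 2928) (nat_lit 16) = 0 := by decide +kernel
theorem t_184 : rngB tf (nat_lit 307277) (nat_lit 2944) (nat_lit 16) = 0 := by decide +kernel
theorem t_185 : rngB tf (nat_lit 307277) (nat_lit 2960) (nat_lit 16) = 0 := by decide +kernel

end Cfsg.Agent.H4.Y24
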