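import Cfsg.Agent.H4.Y24F

set_option autoImplicit false
set_option maxRecDepth 100000
set_option Elab.async false

namespace Cfsg.Agent.H4.Y24

open Cfsg.Agent.H5 Cfsg.Agent.H8.TC Cfsg.Agent.H4.TC

theorem t_186 : rngB tf (nat_lit 307277) (nat_lit 2976) (nat_lit 16) = 0 := by decide +kernel
theorem t_187 : rngB tf (nat_lit 307277) (nat_lit 2992) (nat_lit 16) = 0 := by decide +kernel
theorem t_188 : rngB tf (nat_lit 307277) (nat_lit 3008) (nat_lit 16) = 0 := by decide +kernel
theorem t_189 : rngB tf (nat_lit 307277) (nat_lit 3024) (nat_lit 16) = 0 := by decide +kernel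
theorem t_190 : rngB tf (nat_lit 307277) (nat_lit 3040) (nat_lit 16) = 0 := by decide +kernel
theorem t_191 : rngB tf (nat_lit 307277) (nat_lit 3056) (nat_lit 16) = 0 := by decide +kernel
theorem t_192 : rngB tf (nat_lit 307277) (nat_lit 3072) (nat_lit 16) = 0 := by decide +kernel
theorem t_193 : rngB tf (nat_lit 307277) (nat_lit 3088) (nat_lit 16) = 0 := by decide +kernel
theorem t_194 : rngB tf (nat_lit 307277) (nat_lit 3104) (nat_lit 16) = 0 := by decide +kernel
theorem t_195 : rngB tf (nat_lit 307277) (nat_lit 3120) (nat_lit 16) = 0 := by decide +kernel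
theorem t_196 : rngB tf (nat_lit 307277) (nat_lit 3136) (nat_lit 16) = 0 := by decide +kernel
theorem t_197 : rngB tf (nat_lit 307277) (nat_lit 3152) (nat_lit 16) = 0 := by decide +kernel
theorem t_198 : rngB tf (nat_lit 307277) (nat_lit 3168) (nat_lit 16) = 0 := by decide +kernel
theorem t_199 : rngB tf (nat_lit 307277) (nat_lit 3184) (nat_lit 16) = 0 := by decide +kernel
theorem t_200 : rngB tf (nat_lit 307277) (nat_lit 3200) (nat_lit 16) = 0 := by decide +kernel
theorem t_201 : rngB tf (nat_lit 307277) (nat_lit 3216) (nat_lit 16) = 0 := by decide +kernel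
theorem t_202 : rngB tf (nat_lit 307277) (nat_lit 3232) (nat_lit 16) = 0 := by decide +kernel
theorem t_203 : rngB tf (nat_lit 307277) (nat_lit 3248) (nat_lit 16) = 0 := by decide +kernel
theorem t_204 : rngB tf (nat_lit 307277) (nat_lit 3264) (nat_lit 16) = 0 := by decide +kernel
theorem t_205 : rngB tf (nat_lit 307277) (nat_lit 3280) (nat_lit 16) = 0 := by decide +kernel
theorem t_206 : rngB tf (nat_lit 307277) (nat_lit 3296) (nat_lit 16) = 0 := by decide +kernel
theorem t_207 : rngB tf (nat_lit 307277) (nat_lit 3312) (nat_lit 16) = 0 := by decide +kernel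
theorem t_208 : rngB tf (nat_lit 307277) (nat_lit 3328) (nat_lit 16) = 0 := by decide +kernel
theorem t_209 : rngB tf (nat_lit 307277) (nat_lit 3344) (nat_lit 16) = 0 := by decide +kernel
theorem t_210 : rngB tf (nat_lit 307277) (nat_lit 3360) (nat_lit 16) = 0 := by decide +kernel
theorem t_211 : rngB tf (nat_lit 307277) (nat_lit 3376) (nat_lit 16) = 0 := by decide +kernel
theorem t_212 : rngB tf (nat_lit 307277) (nat_lit 3392) (nat_lit 16) = 0 := by decide +kernel
theorem t_213 : rngB tf (nat_lit 307277) (nat_lit 3408) (nat_lit 16) = 0 := by decide +kernel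
theorem t_214 : rngB tf (nat_lit 307277) (nat_lit 3424) (nat_lit 16) = 0 := by decide +kernel
theorem t_215 : rngB tf (nat_lit 307277) (nat_lit 3440) (nat_lit 16) = 0 := by decide +kernel
theorem t_216 : rngB tf (nat_lit 307277) (nat_lit 3456) (nat_lit 16) = 0 := by decide +kernel

end Cfsg.Agent.H4.Y24
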