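import Cfsg.Agent.H4.Y24F

set_option autoImplicit false
set_option maxRecDepth 100000
set_option Elab.async false

namespace Cfsg.Agent.H4.Y24

open Cfsg.Agent.H5 Cfsg.Agent.H8.TC Cfsg.Agent.H4.TC

theorem t_217 : rngB tf (nat_lit 307277) (nat_lit 3472) (nat_lit 16) = 0 := by decide +kernel
theorem t_218 : rngB tf (nat_lit 307277) (nat_lit 3488) (nat_lit 16) = 0 := by decide +kernel
theorem t_219 : rngB tf (nat_lit 307277) (nat_lit 3504) (nat_lit 16) = 0 := by decide +kernel
theorem t_220 : rngB tf (nat_lit 307277) (nat_lit 3520) (nat_lit 16) = 0 := by decide +kernel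
theorem t_221 : rngB tf (nat_lit 307277) (nat_lit 3536) (nat_lit 16) = 0 := by decide +kernel
theorem t_222 : rngB tf (nat_lit 307277) (nat_lit 3552) (nat_lit 16) = 0 := by decide +kernel
theorem t_223 : rngB tf (nat_lit 307277) (nat_lit 3568) (nat_lit 16) = 0 := by decide +kernel
theorem t_224 : rngB tf (nat_lit 307277) (nat_lit 3584) (nat_lit 16) = 0 := by decide +kernel
theorem t_225 : rngB tf (nat_lit 307277) (nat_lit 3600) (nat_lit 16) = 0 := by decide +kernel
theorem t_226 : rngB tf (nat_lit 307277) (nat_lit 3616) (nat_lit 16) = 0 := by decide +kernel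
theorem t_227 : rngB tf (nat_lit 307277) (nat_lit 3632) (nat_lit 16) = 0 := by decide +kernel
theorem t_228 : rngB tf (nat_lit 307277) (nat_lit 3648) (nat_lit 16) = 0 := by decide +kernel
theorem t_229 : rngB tf (nat_lit 307277) (nat_lit 3664) (nat_lit 16) = 0 := by decide +kernel
theorem t_230 : rngB tf (nat_lit 307277) (nat_lit 3680) (nat_lit 16) = 0 := by decide +kernel
theorem t_231 : rngB tf (nat_lit 307277) (nat_lit 3696) (nat_lit 16) = 0 := by decide +kernel
theorem t_232 : rngB tf (nat_lit 307277) (nat_lit 3712) (nat_lit 16) = 0 := by decide +kernel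
theorem t_233 : rngB tf (nat_lit 307277) (nat_lit 3728) (nat_lit 16) = 0 := by decide +kernel
theorem t_234 : rngB tf (nat_lit 307277) (nat_lit 3744) (nat_lit 16) = 0 := by decide +kernel
theorem t_235 : rngB tf (nat_lit 307277) (nat_lit 3760) (nat_lit 16) = 0 := by decide +kernel
theorem t_236 : rngB tf (nat_lit 307277) (nat_lit 3776) (nat_lit 16) = 0 := by decide +kernel
theorem t_237 : rngB tf (nat_lit 307277) (nat_lit 3792) (nat_lit 16) = 0 := by decide +kernel
theorem t_238 : rngB tf (nat_lit 307277) (nat_lit 3808) (nat_lit 16) = 0 := by decide +kernel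
theorem t_239 : rngB tf (nat_lit 307277) (nat_lit 3824) (nat_lit 16) = 0 := by decide +kernel
theorem t_240 : rngB tf (nat_lit 307277) (nat_lit 3840) (nat_lit 16) = 0 := by decide +kernel
theorem t_241 : rngB tf (nat_lit 307277) (nat_lit 3856) (nat_lit 16) = 0 := by decide +kernel
theorem t_242 : rngB tf (nat_lit 307277) (nat_lit 3872) (nat_lit 16) = 0 := by decide +kernel
theorem t_243 : rngB tf (nat_lit 307277) (nat_lit 3888) (nat_lit 16) = 0 := by decide +kernel
theorem t_244 : rngB tf (nat_lit 307277) (nat_lit 3904) (nat_lit 16) = 0 := by decide +kernel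
theorem t_245 : rngB tf (nat_lit 307277) (nat_lit 3920) (nat_lit 16) = 0 := by decide +kernel
theorem t_246 : rngB tf (nat_lit 307277) (nat_lit 3936) (nat_lit 16) = 0 := by decide +kernel
theorem t_247 : rngB tf (nat_lit 307277) (nat_lit 3952) (nat_lit 16) = 0 := by decide +kernel

end Cfsg.Agent.H4.Y24
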