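import Cfsg.Agent.H4.Y24F

set_option autoImplicit false
set_option maxRecDepth 100000
set_option Elab.async false

namespace Cfsg.Agent.H4.Y24

open Cfsg.Agent.H5 Cfsg.Agent.H8.TC Cfsg.Agent.H4.TC

theorem t_248 : rngB tf (nat_lit 307277) (nat_lit 3968) (nat_lit 16) = 0 := by decide +kernel
theorem t_249 : rngB tf (nat_lit 307277) (nat_lit 3984) (nat_lit 16) = 0 := by decide +kernel
theorem t_250 : rngB tf (nat_lit 307277) (nat_lit 4000) (nat_lit 16) = 0 := by decide +kernel
theorem t_251 : rngB tf (nat_lit 307277) (nat_lit 4016) (nat_lit 16) = 0 := by decide +kernel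
theorem t_252 : rngB tf (nat_lit 307277) (nat_lit 4032) (nat_lit 16) = 0 := by decide +kernel
theorem t_253 : rngB tf (nat_lit 307277) (nat_lit 4048) (nat_lit 16) = 0 := by decide +kernel
theorem t_254 : rngB tf (nat_lit 307277) (nat_lit 4064) (nat_lit 16) = 0 := by decide +kernel
theorem t_255 : rngB tf (nat_lit 307277) (nat_lit 4080) (nat_lit 16) = 0 := by decide +kernel
theorem t_256 : rngB tf (nat_lit 307277) (nat_lit 4096) (nat_lit 16) = 0 := by decide +kernel
theorem t_257 : rngB tf (nat_lit 307277) (nat_lit 4112) (nat_lit 16) = 0 := by decide +kernel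
theorem t_258 : rngB tf (nat_lit 307277) (nat_lit 4128) (nat_lit 16) = 0 := by decide +kernel
theorem t_259 : rngB tf (nat_lit 307277) (nat_lit 4144) (nat_lit 16) = 0 := by decide +kernel
theorem t_260 : rngB tf (nat_lit 307277) (nat_lit 4160) (nat_lit 16) = 0 := by decide +kernel
theorem t_261 : rngB tf (nat_lit 307277) (nat_lit 4176) (nat_lit 16) = 0 := by decide +kernel
theorem t_262 : rngB tf (nat_lit 307277) (nat_lit 4192) (nat_lit 16) = 0 := by decide +kernel
theorem t_263 : rngB tf (nat_lit 307277) (nat_lit 4208) (nat_lit 16) = 0 := by decide +kernel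
theorem t_264 : rngB tf (nat_lit 307277) (nat_lit 4224) (nat_lit 16) = 0 := by decide +kernel
theorem t_265 : rngB tf (nat_lit 307277) (nat_lit 4240) (nat_lit 16) = 0 := by decide +kernel
theorem t_266 : rngB tf (nat_lit 307277) (nat_lit 4256) (nat_lit 16) = 0 := by decide +kernel
theorem t_267 : rngB tf (nat_lit 307277) (nat_lit 4272) (nat_lit 16) = 0 := by decide +kernel
theorem t_268 : rngB tf (nat_lit 307277) (nat_lit 4288) (nat_lit 16) = 0 := by decide +kernel
theorem t_269 : rngB tf (nat_lit 307277) (nat_lit 4304) (nat_lit 16) = 0 := by decide +kernel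
theorem t_270 : rngB tf (nat_lit 307277) (nat_lit 4320) (nat_lit 16) = 0 := by decide +kernel
theorem t_271 : rngB tf (nat_lit 307277) (nat_lit 4336) (nat_lit 16) = 0 := by decide +kernel
theorem t_272 : rngB tf (nat_lit 307277) (nat_lit 4352) (nat_lit 16) = 0 := by decide +kernel
theorem t_273 : rngB tf (nat_lit 307277) (nat_lit 4368) (nat_lit 16) = 0 := by decide +kernel
theorem t_274 : rngB tf (nat_lit 307277) (nat_lit 4384) (nat_lit 16) = 0 := by decide +kernel
theorem t_275 : rngB tf (nat_lit 307277) (nat_lit 4400) (nat_lit 16) = 0 := by decide +kernel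
theorem t_276 : rngB tf (nat_lit 307277) (nat_lit 4416) (nat_lit 16) = 0 := by decide +kernel
theorem t_277 : rngB tf (nat_lit 307277) (nat_lit 4432) (nat_lit 16) = 0 := by decide +kernel
theorem t_278 : rngB tf (nat_lit 307277) (nat_lit 4448) (nat_lit 16) = 0 := by decide +kernel

end Cfsg.Agent.H4.Y24
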