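import Cfsg.Agent.H4.Y24F

set_option autoImplicit false
set_option maxRecDepth 100000
set_option Elab.async false

namespace Cfsg.Agent.H4.Y24

open Cfsg.Agent.H5 Cfsg.Agent.H8.TC Cfsg.Agent.H4.TC

theorem t_279 : rngB tf (nat_lit 307277) (nat_lit 4464) (nat_lit 16) = 0 := by decide +kernel
theorem t_280 : rngB tf (nat_lit 307277) (nat_lit 4480) (nat_lit 16) = 0 := by decide +kernel
theorem t_281 : rngB tf (nat_lit 307277) (nat_lit 4496) (nat_lit 16) = 0 := by decide +kernel
theorem t_282 : rngB tf (nat_lit 307277) (nat_lit 4512) (nat_lit 16) = 0 := by decide +kernel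
theorem t_283 : rngB tf (nat_lit 307277) (nat_lit 4528) (nat_lit 16) = 0 := by decide +kernel
theorem t_284 : rngB tf (nat_lit 307277) (nat_lit 4544) (nat_lit 16) = 0 := by decide +kernel
theorem t_285 : rngB tf (nat_lit 307277) (nat_lit 4560) (nat_lit 16) = 0 := by decide +kernel
theorem t_286 : rngB tf (nat_lit 307277) (nat_lit 4576) (nat_lit 16) = 0 := by decide +kernel
theorem t_287 : rngB tf (nat_lit 307277) (nat_lit 4592) (nat_lit 16) = 0 := by decide +kernel
theorem t_288 : rngB tf (nat_lit 307277) (nat_lit 4608) (nat_lit 16) = 0 := by decide +kernel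
theorem t_289 : rngB tf (nat_lit 307277) (nat_lit 4624) (nat_lit 16) = 0 := by decide +kernel
theorem t_290 : rngB tf (nat_lit 307277) (nat_lit 4640) (nat_lit 16) = 0 := by decide +kernel
theorem t_291 : rngB tf (nat_lit 307277) (nat_lit 4656) (nat_lit 16) = 0 := by decide +kernel
theorem t_292 : rngB tf (nat_lit 307277) (nat_lit 4672) (nat_lit 16) = 0 := by decide +kernel
theorem t_293 : rngB tf (nat_lit 307277) (nat_lit 4688) (nat_lit 16) = 0 := by decide +kernel
theorem t_294 : rngB tf (nat_lit 307277) (nat_lit 4704) (nat_lit 16) = 0 := by decide +kernel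
theorem t_295 : rngB tf (nat_lit 307277) (nat_lit 4720) (nat_lit 16) = 0 := by decide +kernel
theorem t_296 : rngB tf (nat_lit 307277) (nat_lit 4736) (nat_lit 16) = 0 := by decide +kernel
theorem t_297 : rngB tf (nat_lit 307277) (nat_lit 4752) (nat_lit 16) = 0 := by decide +kernel
theorem t_298 : rngB tf (nat_lit 307277) (nat_lit 4768) (nat_lit 16) = 0 := by decide +kernel
theorem t_299 : rngB tf (nat_lit 307277) (nat_lit 4784) (nat_lit 16) = 0 := by decide +kernel
theorem t_300 : rngB tf (nat_lit 307277) (nat_lit 4800) (nat_lit 2) = 0 := by decide +kernel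
theorem t_z : od (tR 0) = 0 := by decide +kernel

end Cfsg.Agent.H4.Y24
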