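import Cfsg.Agent.H4.Y24F
import Cfsg.Agent.H4.TC5

set_option autoImplicit false
set_option maxRecDepth 100000

namespace Cfsg.Agent.H4.Y24

open Cfsg.Agent.H5 Cfsg.Agent.H8.TC Cfsg.Agent.H4.TC

noncomputable def oF : ℕ → ℕ := chkDn tR (nat_lit 32) (nat_lit 0xffffffff) (nat_lit 11) (nat_lit 31672)

end Cfsg.Agent.H4.Y24
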