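import Cfsg.Agent.H4.Y24G

set_option autoImplicit false
set_option maxRecDepth 100000
set_option Elab.async false

namespace Cfsg.Agent.H4.Y24

open Cfsg.Agent.H5 Cfsg.Agent.H8.TC Cfsg.Agent.H4.TC

theorem o_0 : rngB oF (nat_lit 306936) (nat_lit 0) (nat_lit 200) = 0 := by decide +kernel
theorem o_2 : rngB oF (nat_lit 306936) (nat_lit 400) (nat_lit 200) = 0 := by decide +kernel
theorem o_4 : rngB oF (nat_lit 306936) (nat_lit 800) (nat_lit 200) = 0 := by decide +kernel
theorem o_6 : rngB oF (nat_lit 306936) (nat_lit 1200) (nat_lit 200) = 0 := by decide +kernel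
theorem o_8 : rngB oF (nat_lit 306936) (nat_lit 1600) (nat_lit 200) = 0 := by decide +kernel
theorem o_10 : rngB oF (nat_lit 306936) (nat_lit 2000) (nat_lit 200) = 0 := by decide +kernel
theorem o_12 : rngB oF (nat_lit 306936) (nat_lit 2400) (nat_lit 200) = 0 := by decide +kernel
theorem o_14 : rngB oF (nat_lit 306936) (nat_lit 2800) (nat_lit 200) = 0 := by decide +kernel
theorem o_16 : rngB oF (nat_lit 306936) (nat_lit 3200) (nat_lit 200) = 0 := by decide +kernel
theorem o_18 : rngB oF (nat_lit 306936) (nat_lit 3600) (nat_lit 200) = 0 := by decide +kernel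
theorem o_20 : rngB oF (nat_lit 306936) (nat_lit 4000) (nat_lit 200) = 0 := by decide +kernel
theorem o_22 : rngB oF (nat_lit 306936) (nat_lit 4400) (nat_lit 200) = 0 := by decide +kernel

end Cfsg.Agent.H4.Y24
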