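import Cfsg.Agent.H4.Y24G

set_option autoImplicit false
set_option maxRecDepth 100000
set_option Elab.async false

namespace Cfsg.Agent.H4.Y24

open Cfsg.Agent.H5 Cfsg.Agent.H8.TC Cfsg.Agent.H4.TC

theorem o_1 : rngB oF (nat_lit 306936) (nat_lit 200) (nat_lit 200) = 0 := by decide +kernel
theorem o_3 : rngB oF (nat_lit 306936) (nat_lit 600) (nat_lit 200) = 0 := by decide +kernel
theorem o_5 : rngB oF (nat_lit 306936) (nat_lit 1000) (nat_lit 200) = 0 := by decide +kernel
theorem o_7 : rngB oF (nat_lit 306936) (nat_lit 1400) (nat_lit 200) = 0 := by decide +kernel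
theorem o_9 : rngB oF (nat_lit 306936) (nat_lit 1800) (nat_lit 200) = 0 := by decide +kernel
theorem o_11 : rngB oF (nat_lit 306936) (nat_lit 2200) (nat_lit 200) = 0 := by decide +kernel
theorem o_13 : rngB oF (nat_lit 306936) (nat_lit 2600) (nat_lit 200) = 0 := by decide +kernel
theorem o_15 : rngB oF (nat_lit 306936) (nat_lit 3000) (nat_lit 200) = 0 := by decide +kernel
theorem o_17 : rngB oF (nat_lit 306936) (nat_lit 3400) (nat_lit 200) = 0 := by decide +kernel
theorem o_19 : rngB oF (nat_lit 306936) (nat_lit 3800) (nat_lit 200) = 0 := by decide +kernel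
theorem o_21 : rngB oF (nat_lit 306936) (nat_lit 4200) (nat_lit 200) = 0 := by decide +kernel
theorem o_23 : rngB oF (nat_lit 306936) (nat_lit 4600) (nat_lit 196) = 0 := by decide +kernel

end Cfsg.Agent.H4.Y24
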